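import Mathlib

set_option autoImplicit false

namespace Cfsg.Agent.Lib.Helper15

theorem card_le_mul_of_fiber {G α : Type*} [Group G] [Finite G] [Fintype α] (K H : Set G) (f : G → α)
    (h : ∀ x ∈ K, ∀ y ∈ K, f x = f y → x⁻¹ * y ∈ H) : Nat.card K ≤ Fintype.card α * Nat.card H := by
  classical
  let rep : α → G := fun c => if hc : ∃ x ∈ K, f x = c then hc.choose else 1
  have hrep : ∀ y ∈ K, rep (f y) ∈ K ∧ f (rep (f y)) = f y := by
    intro y hy
    have hc : ∃ x ∈ K, f x = f y := ⟨y, hy, rfl⟩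
    simp only [rep, dif_pos hc]
    exact hc.choose_spec
  have := Nat.card_le_card_of_injective
    (fun y : K => ((f y, ⟨(rep (f y))⁻¹ * y, h _ (hrep y y.2).1 _ y.2 (hrep y y.2).2⟩) : α × H)) (by
    intro y y' hyy
    simp only [Prod.mk.injEq, Subtype.mk.injEq] at hyy
    obtain ⟨h1, h2⟩ := hyy
    rw [h1] at h2
    exact Subtype.ext (mul_left_cancel h2))
  rwa [Nat.card_prod, Nat.card_eq_fintype_card (α := α)] at this

/-- groups that are elementary abelian modulo a central involution `z` -/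
theorem card_le_of_extra {G : Type*} [Group G] [Finite G] (z : G)
    (E : Subgroup G) (hsq : ∀ x ∈ E, x * x = 1 ∨ x * x = z)
    (hco : ∀ x ∈ E, ∀ y ∈ E, x * y = y * x ∨ x * y = z * (y * x)) (n M : ℕ)
    (H1 : ∀ A₀ : Set G, A₀ ⊆ E → (∀ a ∈ A₀, a * a = 1) → (∀ a ∈ A₀, ∀ b ∈ A₀, a * b = b * a) →
       Nat.card A₀ ≤ M ∧ Nat.card E ≤ n * Nat.card {x : G | x ∈ E ∧ ∀ a ∈ A₀, x * a = a * x}) :
    Nat.card E ≤ n * (2 * (2 * M)) := by
  classical
  obtain ⟨A, ⟨hAE, hAc⟩, hmax⟩ := Set.Finite.exists_maximal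
    (s := {A : Set G | A ⊆ E ∧ ∀ a ∈ A, ∀ b ∈ A, a * b = b * a}) (Set.toFinite _) ⟨∅, by simp⟩
  have hself : ∀ y ∈ E, (∀ a ∈ A, y * a = a * y) → y ∈ A := by
    intro y hy hya
    have h1 : insert y A ⊆ A := hmax (y := insert y A) ⟨by
        intro x hx
        rcases hx with rfl | hx
        · exact hy
        · exact hAE hx, by
        intro a ha b hb
        rcases ha with rfl | ha <;> rcases hb with rfl | hb
        · rfl
        · exact hya b hb
        · exact (hya a ha).symm
        · exact hAc a ha b hb⟩ (Set.subset_insert _ _)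
    exact h1 (Set.mem_insert _ _)
  set A₀ : Set G := {a | a ∈ A ∧ a * a = 1} with hA₀
  obtain ⟨hM, hn⟩ := H1 A₀ (fun a ha => hAE ha.1) (fun a ha => ha.2) (fun a ha b hb => hAc a ha.1 b hb.1)
  set C : Set G := {x : G | x ∈ E ∧ ∀ a ∈ A₀, x * a = a * x} with hC
  -- products in `A`
  have hinvmul : ∀ x ∈ A, ∀ y ∈ A, x⁻¹ * y ∈ A := by
    intro x hx y hy
    apply hself _ (E.mul_mem (E.inv_mem (hAE hx)) (hAE hy))
    intro a ha
    have e1 : y * a = a * y := hAc y hy a ha
    have e2 : x⁻¹ * a = a * x⁻¹ := by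
      have := hAc x hx a ha
      rw [inv_mul_eq_iff_eq_mul, ← mul_assoc, this, mul_assoc, mul_inv_cancel, mul_one]
    rw [mul_assoc, e1, ← mul_assoc, e2, mul_assoc]
  have hsame : ∀ x ∈ A, ∀ y ∈ A, x * x = y * y → x⁻¹ * y ∈ A₀ := by
    intro x hx y hy hxy
    refine ⟨hinvmul x hx y hy, ?_⟩
    have e1 : y * x⁻¹ = x⁻¹ * y := by
      have := hAc x hx y hy
      rw [eq_inv_mul_iff_mul_eq, ← mul_assoc, this, mul_assoc, mul_inv_cancel, mul_one]
    calc x⁻¹ * y * (x⁻¹ * y) = x⁻¹ * (y * x⁻¹) * y := by group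
      _ = x⁻¹ * x⁻¹ * (y * y) := by rw [e1]; group
      _ = x⁻¹ * x⁻¹ * (x * x) := by rw [hxy]
      _ = 1 := by group
  have h1 : Nat.card A ≤ 2 * Nat.card A₀ := by
    have := card_le_mul_of_fiber A A₀ (fun x => decide (x * x = 1)) (by
      intro x hx y hy hxy
      apply hsame x hx y hy
      simp only [decide_eq_decide] at hxy
      rcases hsq x (hAE hx) with h | h
      · rw [h, hxy.1 h]
      · rcases hsq y (hAE hy) with h' | h'
        · rw [h', hxy.2 h']
        · rw [h, h'])
    simpa using this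
  have h2 : Nat.card C ≤ 2 * Nat.card A := by
    by_cases hi : ∃ i ∈ A, i * i ≠ 1
    · obtain ⟨i, hiA, hi1⟩ := hi
      have hiz : i * i = z := (hsq i (hAE hiA)).resolve_left hi1
      have := card_le_mul_of_fiber C A (fun x => decide (x * i = i * x)) (by
        intro x hx y hy hxy
        simp only [decide_eq_decide] at hxy
        have hxyE : x⁻¹ * y ∈ E := E.mul_mem (E.inv_mem hx.1) hy.1
        have hcomm_inv : ∀ a, x * a = a * x → y * a = a * y → x⁻¹ * y * a = a * (x⁻¹ * y) := by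
          intro a e1 e2
          have e3 : x⁻¹ * a = a * x⁻¹ := by
            rw [inv_mul_eq_iff_eq_mul, ← mul_assoc, e1, mul_assoc, mul_inv_cancel, mul_one]
          rw [mul_assoc, e2, ← mul_assoc, e3, mul_assoc]
        have hci : x⁻¹ * y * i = i * (x⁻¹ * y) := by
          by_cases hxi : x * i = i * x
          · exact hcomm_inv i hxi (hxy.1 hxi)
          · have hyi : ¬ y * i = i * y := fun h => hxi (hxy.2 h)
            have e1 : x * i = z * (i * x) := (hco x hx.1 i (hAE hiA)).resolve_left hxi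
            have e2 : y * i = z * (i * y) := (hco y hy.1 i (hAE hiA)).resolve_left hyi
            have e3 : x⁻¹ * (z * i) = i * x⁻¹ := by
              rw [inv_mul_eq_iff_eq_mul, ← mul_assoc, e1, mul_assoc, mul_assoc, mul_inv_cancel, mul_one]
            rw [mul_assoc, e2, ← mul_assoc z, ← mul_assoc, e3, mul_assoc]
        apply hself _ hxyE
        intro a ha
        by_cases ha1 : a * a = 1
        · exact hcomm_inv a (hx.2 a ⟨ha, ha1⟩) (hy.2 a ⟨ha, ha1⟩)
        · have haz : a * a = z := (hsq a (hAE ha)).resolve_left ha1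
          have hb := hsame i hiA a ha (by rw [hiz, haz])
          have e4 := hcomm_inv _ (hx.2 _ hb) (hy.2 _ hb)
          have e5 : a = i * (i⁻¹ * a) := by group
          rw [e5, ← mul_assoc, hci, mul_assoc, e4, ← mul_assoc])
      simpa using this
    · push Not at hi
      have hsub : C ⊆ A := by
        intro x hx
        exact hself x hx.1 (fun a ha => hx.2 a ⟨ha, hi a ha⟩)
      have := Nat.card_mono (Set.toFinite A) hsub
      omega
  calc Nat.card E ≤ n * Nat.card C := hn
    _ ≤ n * (2 * (2 * M)) := by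
      apply Nat.mul_le_mul_left
      omega

end Cfsg.Agent.Lib.Helper15
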