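import Mathlib
import Cfsg.Agent.Lib.Helper15.Parity

set_option autoImplicit false

open Module QuadraticMap

namespace Cfsg.Agent.Lib.Helper15

variable {F : Type*} [Field F] {V : Type*} [AddCommGroup V] [Module F V]

/-- fixed space -/
abbrev fixS (g : Module.End F V) : Submodule F V := LinearMap.ker (g - 1)

theorem mem_fixS (g : Module.End F V) (x : V) : x ∈ fixS g ↔ g x = x := by
  rw [LinearMap.mem_ker, LinearMap.sub_apply, Module.End.one_apply, sub_eq_zero]

theorem finrank_fixS_rL_mul [FiniteDimensional F V] (Q : QuadraticForm F V) (g : Module.End F V)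
    (hg : ∀ x, Q (g x) = Q x) (v : V) (hv : Q v ≠ 0) (hvr : v ∈ LinearMap.range (g - 1)) :
    finrank F (fixS g) + 1 = finrank F (fixS (rL Q v * g)) := by
  obtain ⟨x, hx⟩ := hvr
  have hx' : g x - x = v := hx
  set ψ : V →ₗ[F] F := (polarBilin Q v).comp g with hψ
  have hψa : ∀ y, ψ y = polar Q v (g y) := fun y => rfl
  have hperp : ∀ y ∈ fixS g, polar Q v y = 0 := by
    intro y hy
    rw [mem_fixS] at hy
    rw [← hx', polar_sub_left]
    conv_lhs => rw [← hy]
    rw [polar_of_isometry hg, hy, sub_self]
  have e : fixS (rL Q v * g) ⊓ LinearMap.ker ψ = fixS g := by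
    apply le_antisymm
    · rintro y ⟨hy1, hy2⟩
      have hy1 := (mem_fixS _ y).1 hy1
      rw [Module.End.mul_apply] at hy1
      have hy2' : polar Q v (g y) = 0 := hy2
      rw [rL_fix Q hy2'] at hy1
      exact (mem_fixS g y).2 hy1
    · intro y hy
      have hy' := (mem_fixS g y).1 hy
      refine ⟨?_, ?_⟩
      · apply (mem_fixS _ y).2
        rw [Module.End.mul_apply, hy', rL_fix Q (hperp y hy)]
      · show polar Q v (g y) = 0
        rw [hy']; exact hperp y hy
  have hnot : ¬ fixS (rL Q v * g) ≤ LinearMap.ker ψ := by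
    intro hle
    have hxf : x ∈ fixS (rL Q v * g) := by
      rw [mem_fixS, Module.End.mul_apply, ← hx']
      exact rL_sub Q (hg x) (by rw [hx']; exact hv)
    have h0 : polar Q v (g x) = 0 := hle hxf
    apply hv
    have e2 := QuadraticMap.map_add Q (g x) (-x)
    rw [polar_neg_right, QuadraticMap.map_neg, ← sub_eq_add_neg, hg, hx'] at e2
    rw [← hx', polar_sub_left, polar_self, hg, polar_comm Q x (g x)] at h0
    simp only [nsmul_eq_mul, Nat.cast_ofNat] at h0
    rw [e2]
    linear_combination h0
  have := finrank_inf_ker ψ _ hnot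
  rw [e] at this
  exact this

theorem range_sub_one_eq [FiniteDimensional F V] (Q : QuadraticForm F V) (hQ : ND Q) (g : Module.End F V)
    (hg : ∀ x, Q (g x) = Q x) :
    LinearMap.range (g - 1) = LinearMap.BilinForm.orthogonal (polarBilin Q) (fixS g) := by
  apply Submodule.eq_of_le_of_finrank_eq
  · rintro _ ⟨x, rfl⟩ y hy
    rw [mem_fixS] at hy
    show polar Q y (g x - x) = 0
    rw [polar_sub_right]
    conv_lhs => rw [← hy]
    rw [polar_of_isometry hg, hy, sub_self]
  · rw [LinearMap.BilinForm.finrank_orthogonal (nondegenerate_of_left Q hQ)]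
    have := LinearMap.finrank_range_add_finrank_ker (g - 1)
    have h3 : finrank F (fixS g) = finrank F (LinearMap.ker (g - 1)) := rfl
    omega

/-- multiplying an isometry by a reflection changes the dimension of the fixed space by exactly one -/
theorem odd_finrank_fixS [FiniteDimensional F V] (Q : QuadraticForm F V) (hQ : ND Q) (g : Module.End F V)
    (hg : ∀ x, Q (g x) = Q x) (v : V) (hv : Q v ≠ 0) :
    Odd (finrank F (fixS g) + finrank F (fixS (rL Q v * g))) := by
  by_cases hvr : v ∈ LinearMap.range (g - 1)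
  · rw [← finrank_fixS_rL_mul Q g hg v hv hvr]
    exact ⟨finrank F (fixS g), by ring⟩
  · have hg' : ∀ x, Q ((rL Q v * g) x) = Q x := by
      intro x
      rw [Module.End.mul_apply, Q_rL Q hv, hg]
    have hvr' : v ∈ LinearMap.range (rL Q v * g - 1) := by
      rw [range_sub_one_eq Q hQ g hg] at hvr
      have : ∃ y ∈ fixS g, polar Q y v ≠ 0 := by
        by_contra hcon
        push Not at hcon
        exact hvr hcon
      obtain ⟨y, hy, hyv⟩ := this
      rw [mem_fixS] at hy
      refine ⟨(-(Q v) / polar Q y v) • y, ?_⟩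
      rw [map_smul, LinearMap.sub_apply, Module.End.mul_apply, hy, rL_apply, Module.End.one_apply,
        polar_comm Q v y, sub_sub_cancel_left, smul_neg, smul_smul, ← neg_smul]
      have : -(-Q v / polar Q y v * ((Q v)⁻¹ * polar Q y v)) = 1 := by
        field_simp
      rw [this, one_smul]
    have := finrank_fixS_rL_mul Q (rL Q v * g) hg' v hv hvr'
    rw [← mul_assoc, rL_mul_self Q hv, one_mul] at this
    rw [← this]
    exact ⟨finrank F (fixS (rL Q v * g)), by ring⟩

theorem even_finrank_fixS_prod [FiniteDimensional F V] (Q : QuadraticForm F V) (hQ : ND Q)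
    (vs : List V) (hvs : ∀ v ∈ vs, Q v ≠ 0) :
    Even (finrank F V + finrank F (fixS (vs.map (rL Q)).prod) + vs.length) := by
  induction vs with
  | nil =>
    have : fixS ((([] : List V).map (rL Q)).prod) = ⊤ := by
      rw [eq_top_iff]
      intro x _
      rw [mem_fixS]; rfl
    rw [this, finrank_top, List.length_nil, add_zero]
    exact ⟨_, rfl⟩
  | cons v vs ih =>
    have hvs' : ∀ w ∈ vs, Q w ≠ 0 := fun w hw => hvs w (List.mem_cons_of_mem _ hw)
    have ih' := ih hvs'
    have hP : IsRP Q (vs.map (rL Q)).prod := ⟨vs, hvs', rfl⟩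
    have hodd := odd_finrank_fixS Q hQ _ hP.isometry v (hvs v List.mem_cons_self)
    rw [List.map_cons, List.prod_cons, List.length_cons]
    rcases ih' with ⟨a, ha⟩
    rcases hodd with ⟨b, hb⟩
    exact ⟨a + b + 1 - finrank F (fixS (vs.map (rL Q)).prod), by omega⟩

end Cfsg.Agent.Lib.Helper15
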