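import Mathlib
import Cfsg.Agent.Lib.Helper15.RankParity
import Cfsg.Agent.Lib.Helper15.ParityMat

set_option autoImplicit false

namespace Cfsg.Agent.Lib.Helper15

open Matrix QuadraticMap Module

variable {ι : Type} [Fintype ι] [DecidableEq ι] {F : Type*} [Field F] [Fintype F] [DecidableEq F]
  (Q : QuadraticForm F (ι → F))

/-- the rank of `g - 1` has the parity of the number of reflections in any factorisation of `g` -/
theorem even_rank_sub_one_iff (hQ : (polarBilin Q).Nondegenerate) (vs : List (ι → F)) (hvs : ∀ v ∈ vs, Q v ≠ 0) :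
    Even (((((vs.map (reflT Q)).prod : Cfsg.isometryGroup F ⇑Q) : GL ι F) : Matrix ι ι F) - 1).rank
      ↔ Even vs.length := by
  have h := even_finrank_fixS_prod Q (nd_of_nondegenerate hQ) vs hvs
  have e : Matrix.mulVecLin (((((vs.map (reflT Q)).prod : Cfsg.isometryGroup F ⇑Q) : GL ι F) : Matrix ι ι F) - 1)
      = (vs.map (rL Q)).prod - 1 := by
    rw [← mulVecLin_prod_reflT Q vs hvs]
    apply LinearMap.ext
    intro x
    simp
  unfold Matrix.rank
  rw [e]
  have h1 := LinearMap.finrank_range_add_finrank_ker ((vs.map (rL Q)).prod - 1)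
  have h3 : finrank F (fixS (vs.map (rL Q)).prod) = finrank F (LinearMap.ker ((vs.map (rL Q)).prod - 1)) := rfl
  rw [h3] at h
  obtain ⟨a, ha⟩ := h
  constructor
  · rintro ⟨b, hb⟩
    exact ⟨a - b - finrank F (LinearMap.ker ((vs.map (rL Q)).prod - 1)), by omega⟩
  · rintro ⟨b, hb⟩
    exact ⟨a - b - finrank F (LinearMap.ker ((vs.map (rL Q)).prod - 1)), by omega⟩

/-- characteristic two: `g ∈ Ω` iff `rank (g - 1)` is even -/
theorem mem_Omega_iff_even_rank [CharP F 2] (hQ : (polarBilin Q).Nondegenerate)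
    (hex : Fintype.card F ≠ 2 ∨ Fintype.card ι ≠ 4) (g : Cfsg.isometryGroup F ⇑Q) :
    g ∈ Cfsg.Omega F ⇑Q ↔ Even (((g : GL ι F) : Matrix ι ι F) - 1).rank := by
  obtain ⟨vs, hvs, rfl⟩ := cartan_dieudonne Q hQ hex g
  rw [even_rank_sub_one_iff Q hQ vs hvs, prod_mem_Omega_iff_two Q hQ vs hvs]

/-- odd characteristic: `det g = 1` iff `rank (g - 1)` is even -/
theorem det_eq_one_iff_even_rank (h2 : (2 : F) ≠ 0) (hQ : (polarBilin Q).Nondegenerate)
    (g : Cfsg.isometryGroup F ⇑Q) :
    ((g : GL ι F) : Matrix ι ι F).det = 1 ↔ Even (((g : GL ι F) : Matrix ι ι F) - 1).rank := by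
  obtain ⟨vs, hvs, rfl⟩ := cartan_dieudonne Q hQ (Or.inl (card_ne_two h2)) g
  rw [even_rank_sub_one_iff Q hQ vs hvs, coe_prod_reflT _ _ hvs, det_prod_refl _ _ hvs]
  constructor
  · intro h
    by_contra hodd
    rw [Nat.not_even_iff_odd] at hodd
    rw [hodd.neg_one_pow] at h
    apply h2
    linear_combination (-1 : F) * h
  · intro h; exact h.neg_one_pow

end Cfsg.Agent.Lib.Helper15
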