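import Mathlib
import Cfsg.Agent.S0750
import Cfsg.Agent.Lib.Helper15.Omega2
import Cfsg.Agent.Lib.Helper15.ParityMat
import Cfsg.Agent.Lib.Helper15.RankMat

set_option autoImplicit false

namespace Cfsg.Agent.Lib.Helper15

open Matrix QuadraticMap Module

variable {ι : Type} [Fintype ι] [DecidableEq ι] {F : Type*} [Field F]
  (Q : QuadraticForm F (ι → F))

/-- the linear equivalence of an invertible matrix -/
def glEquiv (g : GL ι F) : (ι → F) ≃ₗ[F] (ι → F) where
  toFun x := (g : Matrix ι ι F) *ᵥ x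
  map_add' x y := Matrix.mulVec_add _ x y
  map_smul' c x := Matrix.mulVec_smul _ c x
  invFun x := ((g⁻¹ : GL ι F) : Matrix ι ι F) *ᵥ x
  left_inv x := by
    show ((g⁻¹ : GL ι F) : Matrix ι ι F) *ᵥ ((g : Matrix ι ι F) *ᵥ x) = x
    rw [Matrix.mulVec_mulVec, ← Units.val_mul, inv_mul_cancel]; simp
  right_inv x := by
    show (g : Matrix ι ι F) *ᵥ (((g⁻¹ : GL ι F) : Matrix ι ι F) *ᵥ x) = x
    rw [Matrix.mulVec_mulVec, ← Units.val_mul, mul_inv_cancel]; simp

theorem glEquiv_apply (g : GL ι F) (x : ι → F) : glEquiv g x = (g : Matrix ι ι F) *ᵥ x := rfl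

variable {Q}

theorem polar_nil {t : Cfsg.isometryGroup F ⇑Q} (ht : t * t = 1) (x y : ι → F) :
    polar Q (act Q t x - x) y = polar Q x (act Q t y - y) := by
  rw [polar_sub_left, polar_sub_right]
  congr 1
  have : polar Q (act Q t x) (act Q t (act Q t y)) = polar Q x (act Q t y) := polar_act t _ _
  rw [← act_mul, ht, act_one] at this
  exact this

theorem Q_nil [CharP F 2] (t : Cfsg.isometryGroup F ⇑Q) (x : ι → F) :
    Q (act Q t x - x) = polar Q (act Q t x) x := by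
  rw [sub_eq_add_neg, QuadraticMap.map_add Q, QuadraticMap.map_neg, Q_act, polar_neg_right, CharTwo.add_self_eq_zero,
    zero_add, CharTwo.neg_eq]

/-- the range of `t - 1` -/
def nilRange (t : Cfsg.isometryGroup F ⇑Q) : Submodule F (ι → F) :=
  LinearMap.range (Matrix.mulVecLin ((t : GL ι F) : Matrix ι ι F) - LinearMap.id)

theorem mem_nilRange (t : Cfsg.isometryGroup F ⇑Q) (y : ι → F) :
    y ∈ nilRange t ↔ ∃ x, act Q t x - x = y := by
  unfold nilRange
  rw [LinearMap.mem_range]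
  rfl

theorem isConj_of_symp [Finite F] [CharP F 2] (hQ : (polarBilin Q).Nondegenerate)
    {t s : Cfsg.isometryGroup F ⇑Q} (hs : s * s = 1) (g : GL ι F)
    (hg : ∀ u v, polar Q ((g : Matrix ι ι F) *ᵥ u) ((g : Matrix ι ι F) *ᵥ v) = polar Q u v)
    (hgt : g * (t : GL ι F) = (s : GL ι F) * g) : IsConj t s := by
  have hcomm : ∀ x, (g : Matrix ι ι F) *ᵥ (act Q t x) = act Q s ((g : Matrix ι ι F) *ᵥ x) := by
    intro x
    show (g : Matrix ι ι F) *ᵥ (((t : GL ι F) : Matrix ι ι F) *ᵥ x)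
      = ((s : GL ι F) : Matrix ι ι F) *ᵥ ((g : Matrix ι ι F) *ᵥ x)
    rw [Matrix.mulVec_mulVec, Matrix.mulVec_mulVec, ← Units.val_mul, ← Units.val_mul, hgt]
  have hnil : ∀ x, (g : Matrix ι ι F) *ᵥ (act Q t x - x)
      = act Q s ((g : Matrix ι ι F) *ᵥ x) - (g : Matrix ι ι F) *ᵥ x := by
    intro x
    rw [Matrix.mulVec_sub, hcomm]
  have hmap : (nilRange t).map (glEquiv g : (ι → F) →ₗ[F] (ι → F)) = nilRange s := by
    ext y
    rw [Submodule.mem_map, mem_nilRange]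
    constructor
    · rintro ⟨x, hx, rfl⟩
      obtain ⟨w, rfl⟩ := (mem_nilRange t x).1 hx
      exact ⟨(g : Matrix ι ι F) *ᵥ w, (hnil w).symm⟩
    · rintro ⟨w, rfl⟩
      refine ⟨act Q t ((glEquiv g).symm w) - (glEquiv g).symm w, (mem_nilRange t _).2 ⟨_, rfl⟩, ?_⟩
      show (g : Matrix ι ι F) *ᵥ _ = _
      rw [hnil]
      have : (g : Matrix ι ι F) *ᵥ ((glEquiv g).symm w) = w := (glEquiv g).apply_symm_apply w
      rw [this]
  obtain ⟨h, hh1, hh2⟩ := Cfsg.Agent.S0750.result Q hQ (nilRange t) (nilRange s)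
    (LinearEquiv.ofSubmodules (glEquiv g) _ _ hmap) (by
      rintro ⟨x, hx⟩
      obtain ⟨w, rfl⟩ := (mem_nilRange t x).1 hx
      show Q ((g : Matrix ι ι F) *ᵥ (act Q t w - w)) = Q (act Q t w - w)
      rw [hnil, Q_nil, Q_nil, ← hcomm, hg])
  have hh3 : ∀ w, h (act Q t w - w) = (g : Matrix ι ι F) *ᵥ (act Q t w - w) := by
    intro w
    exact hh2 ⟨_, (mem_nilRange t _).2 ⟨w, rfl⟩⟩
  have hpol : ∀ u v, polar Q (h u) (h v) = polar Q u v := by
    intro u v
    unfold polar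
    rw [← map_add, hh1, hh1, hh1]
  rw [isConj_iff]
  refine ⟨ofIsometry Q h hh1, ?_⟩
  rw [mul_inv_eq_iff_eq_mul]
  apply iso_ext
  intro x
  rw [act_mul, act_mul, act_ofIsometry, act_ofIsometry]
  -- c = g x - h x is killed by `s - 1`
  have hc : act Q s ((g : Matrix ι ι F) *ᵥ x - h x) - ((g : Matrix ι ι F) *ᵥ x - h x) = 0 := by
    apply hQ.1
    intro u
    rw [polarBilin_apply_apply, polar_nil hs]
    have hu : act Q s u - u ∈ nilRange s := (mem_nilRange s _).2 ⟨u, rfl⟩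
    rw [← hmap] at hu
    obtain ⟨x', hx', hx'u⟩ := hu
    obtain ⟨w, rfl⟩ := (mem_nilRange t x').1 hx'
    have e1 : act Q s u - u = (g : Matrix ι ι F) *ᵥ (act Q t w - w) := hx'u.symm
    rw [polar_sub_left]
    conv_lhs => rw [e1, hg]
    rw [← hh3, hpol, sub_self]
  have e2 : h (act Q t x) = h (act Q t x - x) + h x := by rw [← map_add, sub_add_cancel]
  rw [e2, hh3, hnil]
  have e3 : act Q s ((g : Matrix ι ι F) *ᵥ x - h x) = act Q s ((g : Matrix ι ι F) *ᵥ x) - act Q s (h x) :=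
    Matrix.mulVec_sub _ _ _
  rw [e3] at hc
  have := sub_eq_zero.1 hc
  rw [sub_eq_iff_eq_add] at this
  rw [this]
  abel

theorem nilRange_eq (t : Cfsg.isometryGroup F ⇑Q) :
    nilRange t = LinearMap.range (Matrix.mulVecLin (((t : GL ι F) : Matrix ι ι F) - 1)) := by
  unfold nilRange
  congr 1
  ext x : 1
  simp

theorem finrank_nilRange (t : Cfsg.isometryGroup F ⇑Q) :
    finrank F (nilRange t) = (((t : GL ι F) : Matrix ι ι F) - 1).rank := by
  rw [nilRange_eq]; rfl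

theorem nilRange_eq' (t : Cfsg.isometryGroup F ⇑Q) :
    nilRange t = LinearMap.range (Matrix.toLin' (((t : GL ι F) : Matrix ι ι F) - 1)) := by
  rw [nilRange_eq, Matrix.toLin'_apply']

theorem nil_eq_add [CharP F 2] (t : Cfsg.isometryGroup F ⇑Q) (x : ι → F) :
    act Q t x - x = x + act Q t x := by
  funext i
  rw [Pi.sub_apply, Pi.add_apply, CharTwo.sub_eq_add, add_comm]

theorem ts_nilRange_iff [CharP F 2] (t : Cfsg.isometryGroup F ⇑Q) :
    (∀ y ∈ nilRange t, Q y = 0) ↔ ∀ v, Q (v + ((t : GL ι F) : Matrix ι ι F) *ᵥ v) = 0 := by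
  constructor
  · intro h v
    have := h _ ((mem_nilRange t _).2 ⟨v, rfl⟩)
    rwa [nil_eq_add] at this
  · intro h y hy
    obtain ⟨v, rfl⟩ := (mem_nilRange t y).1 hy
    rw [nil_eq_add]
    exact h v

theorem nilRange_conj {t s c : Cfsg.isometryGroup F ⇑Q} (h : c * t * c⁻¹ = s) :
    nilRange s = (nilRange t).map (Matrix.mulVecLin ((c : GL ι F) : Matrix ι ι F)) := by
  subst h
  ext y
  rw [Submodule.mem_map, mem_nilRange]
  constructor
  · rintro ⟨x, rfl⟩
    refine ⟨act Q t (act Q c⁻¹ x) - act Q c⁻¹ x, (mem_nilRange t _).2 ⟨_, rfl⟩, ?_⟩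
    show act Q c _ = _
    rw [show act Q c (act Q t (act Q c⁻¹ x) - act Q c⁻¹ x) = act Q c (act Q t (act Q c⁻¹ x)) - act Q c (act Q c⁻¹ x)
      from Matrix.mulVec_sub _ _ _, act_act_inv, act_mul, act_mul]
  · rintro ⟨x, hx, rfl⟩
    obtain ⟨w, rfl⟩ := (mem_nilRange t x).1 hx
    refine ⟨act Q c w, ?_⟩
    show _ = act Q c _
    rw [show act Q c (act Q t w - w) = act Q c (act Q t w) - act Q c w from Matrix.mulVec_sub _ _ _,
      act_mul, act_mul, act_inv_act]

section fin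

variable [Fintype F] [DecidableEq F] [CharP F 2]

theorem exists_Omega_conj (hQ : (polarBilin Q).Nondegenerate)
    (hex : Fintype.card F ≠ 2 ∨ Fintype.card ι ≠ 4) {t s : Cfsg.isometryGroup F ⇑Q} (hconj : IsConj t s)
    (x : ι → F) (hx : Q x ≠ 0) (htx : act Q t x = x) : ∃ g ∈ Cfsg.Omega F ⇑Q, g * t * g⁻¹ = s := by
  obtain ⟨c, hc⟩ := isConj_iff.1 hconj
  by_cases hcO : c ∈ Cfsg.Omega F ⇑Q
  · exact ⟨c, hcO, hc⟩
  · refine ⟨c * refl Q x hx, mul_mem_Omega_two Q hQ hex hcO (refl_not_mem_Omega_two Q hQ x hx), ?_⟩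
    have h1 : t * refl Q x hx * t⁻¹ = refl Q x hx := by
      rw [conj_refl Q t x hx (by rw [htx]; exact hx)]
      congr 1
    have h2 : refl Q x hx * t * (refl Q x hx)⁻¹ = t := by
      rw [mul_inv_eq_iff_eq_mul] at h1 ⊢
      exact h1.symm
    rw [_root_.mul_inv_rev, ← hc]
    calc c * refl Q x hx * t * ((refl Q x hx)⁻¹ * c⁻¹) = c * (refl Q x hx * t * (refl Q x hx)⁻¹) * c⁻¹ := by group
      _ = c * t * c⁻¹ := by rw [h2]

theorem exists_fixed_nonsingular_or (hQ : (polarBilin Q).Nondegenerate) {m : ℕ} (hcard : Fintype.card ι = 2 * m)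
    {t : Cfsg.isometryGroup F ⇑Q} (ht : t * t = 1) :
    (∃ x, Q x ≠ 0 ∧ act Q t x = x) ∨ (finrank F (nilRange t) = m ∧ ∀ y ∈ nilRange t, Q y = 0) := by
  by_cases hex : ∃ x, Q x ≠ 0 ∧ act Q t x = x
  · exact Or.inl hex
  · right
    push Not at hex
    set N : (ι → F) →ₗ[F] (ι → F) := Matrix.mulVecLin ((t : GL ι F) : Matrix ι ι F) - LinearMap.id with hN
    have hK : ∀ x ∈ LinearMap.ker N, Q x = 0 := by
      intro x hx
      by_contra h
      apply hex x h
      rw [LinearMap.mem_ker] at hx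
      exact sub_eq_zero.1 hx
    have hle : nilRange t ≤ LinearMap.ker N := by
      intro y hy
      obtain ⟨x, rfl⟩ := (mem_nilRange t y).1 hy
      rw [LinearMap.mem_ker]
      show act Q t (act Q t x - x) - (act Q t x - x) = 0
      rw [show act Q t (act Q t x - x) = act Q t (act Q t x) - act Q t x from Matrix.mulVec_sub _ _ _, ← act_mul, ht,
        act_one, nil_eq_add, sub_eq_zero]
      funext i
      rw [Pi.sub_apply, Pi.add_apply, CharTwo.sub_eq_add]
    have h1 := ts_half Q hQ _ hK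
    have h2 := LinearMap.finrank_range_add_finrank_ker N
    have h3 := Submodule.finrank_mono hle
    rw [finrank_fintype_fun_eq_card, hcard] at h1 h2
    have h4 : finrank F (nilRange t) = finrank F (LinearMap.range N) := rfl
    exact ⟨by omega, fun y hy => hK y (hle hy)⟩

theorem Omega_conj_iff_even (hQ : (polarBilin Q).Nondegenerate)
    (hex : Fintype.card F ≠ 2 ∨ Fintype.card ι ≠ 4) {m : ℕ} (hcard : Fintype.card ι = 2 * m)
    {t s : Cfsg.isometryGroup F ⇑Q} (htO : t ∈ Cfsg.Omega F ⇑Q) (hconj : IsConj t s)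
    (hrank : finrank F (nilRange t) = m) (hts : ∀ y ∈ nilRange t, Q y = 0) :
    (∃ g ∈ Cfsg.Omega F ⇑Q, g * t * g⁻¹ = s) ↔ Even (finrank F (nilRange t ⊓ nilRange s : Submodule F (ι → F))) := by
  have hm : Even m := by
    rw [mem_Omega_iff_even_rank Q hQ hex, ← finrank_nilRange, hrank] at htO
    exact htO
  have key : ∀ c : Cfsg.isometryGroup F ⇑Q, c * t * c⁻¹ = s →
      (c ∈ Cfsg.Omega F ⇑Q ↔ Even (finrank F (nilRange t ⊓ nilRange s : Submodule F (ι → F)))) := by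
    intro c hc
    rw [nilRange_conj hc]
    obtain ⟨vs, hvs, rfl⟩ := cartan_dieudonne Q hQ hex c
    rw [prod_mem_Omega_iff_two Q hQ vs hvs, ← even_codim_iff Q hQ hcard (nilRange t) hts hrank vs hvs]
    have hle : finrank F (nilRange t ⊓ (nilRange t).map (Matrix.mulVecLin
        ((((vs.map (reflT Q)).prod : Cfsg.isometryGroup F ⇑Q) : GL ι F) : Matrix ι ι F)) : Submodule F (ι → F)) ≤ m := by
      rw [← hrank]; exact Submodule.finrank_mono inf_le_left
    rw [Nat.even_sub hle]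
    simp [hm]
  constructor
  · rintro ⟨g, hg, hgt⟩
    exact (key g hgt).1 hg
  · intro h
    obtain ⟨c, hc⟩ := isConj_iff.1 hconj
    exact ⟨c, (key c hc).2 h, hc⟩

end fin

end Cfsg.Agent.Lib.Helper15
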