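import Mathlib
import Cfsg.Agent.S0752

set_option autoImplicit false

namespace Cfsg.Agent.Lib.Helper15

open Module

variable {F : Type*} [Field F] {V : Type*} [AddCommGroup V] [Module F V] {κ : Type*}

/-- the Gram matrix of `v` is the permutation matrix of `σ` -/
def StdGram [DecidableEq κ] (β : LinearMap.BilinForm F V) (σ : κ → κ) (v : κ → V) : Prop :=
  ∀ i j, β (v i) (v j) = if i = σ j then 1 else 0

variable {β : LinearMap.BilinForm F V} {σ : κ → κ} {v : κ → V}

theorem StdGram.sum_right [Fintype κ] [DecidableEq κ] (hσ : Function.Involutive σ) (hv : StdGram β σ v) (c : κ → F) (i : κ) :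
    β (v i) (∑ j, c j • v j) = c (σ i) := by
  rw [map_sum]
  simp only [map_smul, hv i, smul_eq_mul]
  rw [Finset.sum_eq_single (σ i)]
  · rw [hσ i]; simp
  · intro j _ hj
    rw [if_neg, mul_zero]
    intro h
    apply hj
    rw [h, hσ j]
  · intro h; exact absurd (Finset.mem_univ _) h

theorem StdGram.proj [Fintype κ] [DecidableEq κ] (hσ : Function.Involutive σ) (hv : StdGram β σ v) (y : V) (i : κ) :
    β (v i) (y - ∑ j, β (v (σ j)) y • v j) = 0 := by
  rw [map_sub, hv.sum_right hσ, hσ i, sub_self]

theorem StdGram.li [Fintype κ] [DecidableEq κ] (hσ : Function.Involutive σ) (hv : StdGram β σ v) :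
    LinearIndependent F v := by
  rw [Fintype.linearIndependent_iff]
  intro g hg i
  have := hv.sum_right hσ g (σ i)
  rw [hg, map_zero, hσ i] at this
  exact this.symm

theorem StdGram.card_le [Fintype κ] [DecidableEq κ] [FiniteDimensional F V] (hσ : Function.Involutive σ)
    (hv : StdGram β σ v) : Fintype.card κ ≤ finrank F V :=
  (hv.li hσ).fintype_card_le_finrank

theorem StdGram.cons {n : ℕ} {e : Fin n → V} (he : StdGram β id e) (hsymm : ∀ x y, β x y = β y x) (z : V)
    (hz : ∀ i, β (e i) z = 0) (hzz : β z z = 1) : StdGram β id (Fin.cons z e : Fin (n + 1) → V) := by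
  intro i j
  refine Fin.cases ?_ (fun i' => ?_) i <;> refine Fin.cases ?_ (fun j' => ?_) j
  · simpa using hzz
  · simp only [Fin.cons_zero, Fin.cons_succ, id]
    rw [hsymm, hz, if_neg (Fin.succ_ne_zero j').symm]
  · simp only [Fin.cons_zero, Fin.cons_succ, id]
    rw [hz, if_neg (Fin.succ_ne_zero i')]
  · simp only [Fin.cons_succ, id]
    rw [he i' j']
    simp

/-- a non-alternating symmetric form over a perfect field of characteristic two: orthonormal family with
perp inside the radical -/
theorem exists_orthonormal [CharP F 2] [FiniteDimensional F V] (hperf : ∀ a : F, ∃ b, b * b = a)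
    (hsymm : ∀ x y, β x y = β y x) (hna : ∃ x, β x x ≠ 0) :
    ∃ (n : ℕ) (e : Fin n → V), StdGram β id e ∧ ∀ x, (∀ i, β (e i) x = 0) → ∀ y, β x y = 0 := by
  classical
  let P : ℕ → Prop := fun n => ∃ e : Fin n → V, StdGram β id e
  have hbound : ∀ k, P k → k ≤ finrank F V := by
    rintro k ⟨e, he⟩
    simpa using he.card_le (fun _ => rfl)
  obtain ⟨n, ⟨e, he⟩, hmax⟩ : ∃ n, P n ∧ ∀ k, P k → k ≤ n :=
    ⟨Nat.findGreatest P (finrank F V), Nat.findGreatest_spec (Nat.zero_le _) ⟨Fin.elim0, fun i => i.elim0⟩,
      fun k hk => Nat.le_findGreatest (hbound k hk) hk⟩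
  have h2 : ∀ a : F, a + a = 0 := CharTwo.add_self_eq_zero
  -- step 1
  have s1 : ∀ x, (∀ i, β (e i) x = 0) → β x x = 0 := by
    intro x hx
    by_contra hne
    obtain ⟨b, hb⟩ := hperf (β x x)
    have hb0 : b ≠ 0 := by rintro rfl; simp at hb; exact hne hb.symm
    have := hmax (n + 1) ⟨_, he.cons hsymm (b⁻¹ • x) (fun i => by rw [map_smul, hx i, smul_zero]) (by
      rw [map_smul, map_smul, LinearMap.smul_apply, smul_eq_mul, smul_eq_mul, ← hb]
      field_simp)⟩
    omega
  -- step 2
  obtain ⟨n', rfl⟩ : ∃ n', n = n' + 1 := by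
    rcases n with _ | n'
    · exfalso
      obtain ⟨x, hx⟩ := hna
      exact hx (s1 x (fun i => i.elim0))
    · exact ⟨n', rfl⟩
  -- step 3
  have s3 : ∀ x y, (∀ i, β (e i) x = 0) → (∀ i, β (e i) y = 0) → β x y = 0 := by
    intro x y hx hy
    by_contra hne
    set y' := (β x y)⁻¹ • y with hy'
    have hxy' : β x y' = 1 := by rw [hy', map_smul, smul_eq_mul, inv_mul_cancel₀ hne]
    have hy'p : ∀ i, β (e i) y' = 0 := fun i => by rw [hy', map_smul, hy i, smul_zero]
    have hxx := s1 x hx
    have hyy := s1 y' hy'p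
    set u := e 0 with hu
    have huu : β u u = 1 := by rw [hu, he 0 0]; simp
    have hux : β u x = 0 := hx 0
    have huy : β u y' = 0 := hy'p 0
    have hxu : β x u = 0 := by rw [hsymm]; exact hux
    have hyu : β y' u = 0 := by rw [hsymm]; exact huy
    have hyx : β y' x = 1 := by rw [hsymm]; exact hxy'
    let e' : Fin n' → V := fun i => e i.succ
    have he' : StdGram β id e' := by
      intro i j
      rw [he i.succ j.succ]
      simp
    have heu : ∀ i, β (e' i) u = 0 := by
      intro i
      rw [hu, he i.succ 0]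
      exact if_neg (Fin.succ_ne_zero i)
    have c1 := he'.cons hsymm (u + x) (fun i => by rw [map_add, heu, hx i.succ, add_zero]) (by
      simp only [map_add, LinearMap.add_apply, huu, hux, hxu, hxx]; ring)
    have c2 := c1.cons hsymm (u + y') (fun i => by
      refine Fin.cases ?_ (fun i' => ?_) i
      · simp only [Fin.cons_zero, map_add, LinearMap.add_apply, huu, huy, hxu, hxy']
        linear_combination h2 1
      · simp only [Fin.cons_succ, map_add, heu, hy'p i'.succ, e']; simp) (by
      simp only [map_add, LinearMap.add_apply, huu, huy, hyu, hyy]; ring)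
    have c3 := c2.cons hsymm (u + x + y') (fun i => by
      refine Fin.cases ?_ (fun i' => ?_) i
      · simp only [Fin.cons_zero, map_add, LinearMap.add_apply, huu, huy, hyu, hyx, hux, hyy]
        linear_combination h2 1
      · refine Fin.cases ?_ (fun i'' => ?_) i'
        · simp only [Fin.cons_zero, Fin.cons_succ, map_add, LinearMap.add_apply, huu, huy, hxu, hxy', hux, hxx]
          linear_combination h2 1
        · simp only [Fin.cons_succ, map_add, heu, hy'p i''.succ, hx i''.succ, e']; simp) (by
      simp only [map_add, LinearMap.add_apply, huu, huy, hyu, hyy, hux, hxu, hxx, hxy', hyx]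
      linear_combination h2 1)
    have := hmax _ ⟨_, c3⟩
    omega
  refine ⟨_, e, he, fun x hx y => ?_⟩
  have h4 := s3 x (y - ∑ j, β (e (id j)) y • e j) hx (fun i => he.proj (fun _ => rfl) y i)
  rw [map_sub, map_sum, sub_eq_zero] at h4
  rw [h4]
  apply Finset.sum_eq_zero
  intro j _
  rw [map_smul, hsymm x, hx j, smul_zero]

/-- alternating forms: hyperbolic family with perp inside the radical -/
theorem exists_hyperbolic [CharP F 2] [FiniteDimensional F V] (halt : β.IsAlt) :
    ∃ (k : ℕ) (e : Fin k ⊕ Fin k → V), StdGram β Sum.swap e ∧ ∀ x, (∀ i, β (e i) x = 0) → ∀ y, β x y = 0 := by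
  obtain ⟨k, l, b, h1, h2, h3, h4⟩ := Cfsg.Agent.S0752.result β halt
  have hsk : ∀ x y, β x y = β y x := by
    intro x y
    rw [← halt.neg_eq, CharTwo.neg_eq]
  refine ⟨k, fun c => b (Sum.inl c), ?_, ?_⟩
  · rintro (i | i) (j | j)
    · simp [h2]
    · simp [h1]
    · rw [hsk, h1]; simp [eq_comm]
    · simp [h3]
  · intro x hx y
    have : β x = 0 := by
      apply b.ext
      rintro (c | j)
      · rw [hsk, hx c]; rfl
      · rw [hsk, h4]; rfl
    rw [this]; rfl

end Cfsg.Agent.Lib.Helper15
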