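import Mathlib
import Cfsg.Agent.Lib.Helper15.NF1

set_option autoImplicit false

namespace Cfsg.Agent.Lib.Helper15

open Module

variable {F : Type*} [Field F] {V : Type*} [AddCommGroup V] [Module F V] {κ : Type*} [Fintype κ] [DecidableEq κ]
  {B : LinearMap.BilinForm F V} {N : V →ₗ[F] V} {σ : κ → κ} {v : κ → V}

theorem StdGram.sum_sum {β : LinearMap.BilinForm F V} (hσ : Function.Involutive σ) (hv : StdGram β σ v) (c : κ → F) :
    β (∑ i, c i • v i) (∑ j, c j • v j) = ∑ i, c i * c (σ i) := by
  rw [map_sum β, LinearMap.sum_apply]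
  apply Finset.sum_congr rfl
  intro i _
  rw [map_smul, LinearMap.smul_apply, hv.sum_right hσ, smul_eq_mul]

/-- the normal form of a nilpotent self-adjoint map -/
theorem nil_formula (hB : ∀ x, (∀ y, B x y = 0) → x = 0) (hadj : ∀ x y, B (N x) y = B x (N y))
    (hσ : Function.Involutive σ) (hv : StdGram (B.compRight N) σ v)
    (hperp : ∀ x, (∀ i, B.compRight N (v i) x = 0) → ∀ y, B.compRight N x y = 0) (x : V) :
    N x = ∑ j, B (N (v (σ j))) x • N (v j) := by
  have h1 := hperp _ (fun i => hv.proj hσ x i)
  have h2 : N (x - ∑ j, B.compRight N (v (σ j)) x • v j) = 0 := by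
    apply hB
    intro y
    rw [hadj]
    exact h1 y
  rw [map_sub, sub_eq_zero, map_sum] at h2
  rw [h2]
  apply Finset.sum_congr rfl
  intro j _
  rw [map_smul, LinearMap.BilinForm.compRight_apply, hadj]

theorem nil_li (hσ : Function.Involutive σ) (hv : StdGram (B.compRight N) σ v) :
    LinearIndependent F (fun j => N (v j)) := by
  rw [Fintype.linearIndependent_iff]
  intro g hg i
  have := hv.sum_right hσ g (σ i)
  rw [LinearMap.BilinForm.compRight_apply, map_sum] at this
  simp only [map_smul] at this
  rw [hg, map_zero, hσ i] at this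
  exact this.symm

theorem nil_finrank (hB : ∀ x, (∀ y, B x y = 0) → x = 0) (hadj : ∀ x y, B (N x) y = B x (N y))
    (hσ : Function.Involutive σ) (hv : StdGram (B.compRight N) σ v)
    (hperp : ∀ x, (∀ i, B.compRight N (v i) x = 0) → ∀ y, B.compRight N x y = 0) :
    finrank F (LinearMap.range N) = Fintype.card κ := by
  have : LinearMap.range N = Submodule.span F (Set.range (fun j => N (v j))) := by
    apply le_antisymm
    · rintro _ ⟨x, rfl⟩
      rw [nil_formula hB hadj hσ hv hperp x]
      apply Submodule.sum_mem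
      intro j _
      exact Submodule.smul_mem _ _ (Submodule.subset_span ⟨j, rfl⟩)
    · rw [Submodule.span_le]
      rintro _ ⟨j, rfl⟩
      exact ⟨v j, rfl⟩
  rw [this, finrank_span_eq_card (nil_li hσ hv)]

end Cfsg.Agent.Lib.Helper15
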