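import Mathlib
import Cfsg.Agent.Lib.Helper18.Symp2

set_option autoImplicit false

namespace Cfsg.Agent.Lib.Helper15

open Module Cfsg.Agent.Lib.Helper18

variable {F : Type*} [Field F] [Fintype F] {V : Type*} [AddCommGroup V] [Module F V] [Finite V]
  [FiniteDimensional F V] {B : LinearMap.BilinForm F V}

/-- a hyperbolic pair of common eigenvectors of a commuting family of symplectic involutions -/
theorem exists_common_pair (h2 : (2 : F) ≠ 0) (A : Set (Module.End F V))
    (hiso : ∀ a ∈ A, ∀ x y, B (a x) (a y) = B x y) (hinv : ∀ a ∈ A, ∀ x, a (a x) = x)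
    (hcomm : ∀ a ∈ A, ∀ b ∈ A, ∀ x, a (b x) = b (a x)) :
    ∀ (k : ℕ) (W : Submodule F V), finrank F W ≤ k → (∀ a ∈ A, ∀ x ∈ W, a x ∈ W) →
      (∀ x ∈ W, x ≠ 0 → ∃ y ∈ W, B x y ≠ 0) → W ≠ ⊥ →
      ∃ e ∈ W, ∃ f ∈ W, B e f = 1 ∧ ∀ a ∈ A, (a e = e ∧ a f = f) ∨ (a e = -e ∧ a f = -f) := by
  intro k
  induction k with
  | zero =>
    intro W hk _ _ hne
    exact absurd (Submodule.finrank_eq_zero.1 (by omega)) hne
  | succ k ih =>
    intro W hk hinvW hnd hne
    by_cases hsc : ∀ a ∈ A, (∀ x ∈ W, a x = x) ∨ (∀ x ∈ W, a x = -x)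
    · obtain ⟨e, heW, he⟩ := (Submodule.ne_bot_iff W).1 hne
      obtain ⟨y, hyW, hy⟩ := hnd e heW he
      refine ⟨e, heW, (B e y)⁻¹ • y, W.smul_mem _ hyW, by rw [map_smul, smul_eq_mul, inv_mul_cancel₀ hy],
        fun a ha => ?_⟩
      rcases hsc a ha with h | h
      · exact Or.inl ⟨h e heW, h _ (W.smul_mem _ hyW)⟩
      · exact Or.inr ⟨h e heW, h _ (W.smul_mem _ hyW)⟩
    · push Not at hsc
      obtain ⟨a, ha, ⟨x₁, hx₁W, hx₁⟩, ⟨x₂, hx₂W, hx₂⟩⟩ := hsc
      set W₁ : Submodule F V := W ⊓ LinearMap.ker (a - 1) with hW₁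
      have hmem : ∀ x, x ∈ W₁ ↔ x ∈ W ∧ a x = x := by
        intro x
        rw [hW₁, Submodule.mem_inf, LinearMap.mem_ker, LinearMap.sub_apply, Module.End.one_apply, sub_eq_zero]
      have hlt : W₁ < W := by
        refine lt_of_le_of_ne inf_le_left ?_
        intro h
        exact hx₁ ((hmem x₁).1 (h ▸ hx₁W)).2
      have hfr := Submodule.finrank_lt_finrank_of_lt hlt
      obtain ⟨e, he1, f, hf1, hef, h3⟩ := ih W₁ (by omega) (by
          intro b hb x hx
          rw [hmem] at hx ⊢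
          exact ⟨hinvW b hb x hx.1, by rw [hcomm a ha b hb, hx.2]⟩) (by
          intro x hx hx0
          rw [hmem] at hx
          obtain ⟨y, hy, hxy⟩ := hnd x hx.1 hx0
          refine ⟨y + a y, (hmem _).2 ⟨W.add_mem hy (hinvW a ha y hy), by
            rw [map_add, hinv a ha, add_comm]⟩, ?_⟩
          have h3 : B x (a y) = B x y := by
            conv_lhs => rw [← hx.2]
            exact hiso a ha x y
          rw [map_add, h3, ← two_mul]
          exact mul_ne_zero h2 hxy) (by
          intro hbot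
          have h1 : x₂ + a x₂ ∈ W₁ := (hmem _).2 ⟨W.add_mem hx₂W (hinvW a ha x₂ hx₂W), by
            rw [map_add, hinv a ha, add_comm]⟩
          rw [hbot, Submodule.mem_bot] at h1
          exact hx₂ (by rw [eq_neg_iff_add_eq_zero, add_comm]; exact h1))
      exact ⟨e, ((hmem e).1 he1).1, f, ((hmem f).1 hf1).1, hef, h3⟩

/-- a family of hyperbolic pairs of common eigenvectors with trivial common perp -/
theorem exists_symp_eigen_frame (hB : B.IsAlt) (h2 : (2 : F) ≠ 0) (A : Set (Module.End F V))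
    (hiso : ∀ a ∈ A, ∀ x y, B (a x) (a y) = B x y) (hinv : ∀ a ∈ A, ∀ x, a (a x) = x)
    (hcomm : ∀ a ∈ A, ∀ b ∈ A, ∀ x, a (b x) = b (a x)) :
    ∀ (j : ℕ) (U : Submodule F V), SympGood B U j → (∀ a ∈ A, ∀ x ∈ U, a x ∈ U) →
      ∃ e f : Fin j → V, (∀ i, B (e i) (f i) = 1) ∧
        (∀ i, ∀ a ∈ A, (a (e i) = e i ∧ a (f i) = f i) ∨ (a (e i) = -e i ∧ a (f i) = -f i)) ∧
        ∀ x ∈ U, (∀ i, B (e i) x = 0 ∧ B (f i) x = 0) → x = 0 := by
  intro j
  induction j with
  | zero =>
    intro U hU _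
    refine ⟨Fin.elim0, Fin.elim0, fun i => i.elim0, fun i => i.elim0, fun x hx _ => ?_⟩
    have h1 : Nat.card U = 1 := by rw [hU.1]; simp
    have := (Nat.card_eq_one_iff_unique.1 h1).1
    have h3 : (⟨x, hx⟩ : U) = 0 := Subsingleton.elim _ _
    exact congrArg Subtype.val h3
  | succ j ih =>
    intro U hU hinvU
    have hne : U ≠ ⊥ := by
      intro h
      have h1 := hU.1
      rw [h] at h1
      have h3 : Nat.card (⊥ : Submodule F V) = 1 := by simp
      rw [h3] at h1
      have h4 : 1 < Fintype.card F ^ (2 * (j + 1)) := Nat.one_lt_pow (by omega) Fintype.one_lt_card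
      omega
    obtain ⟨e₀, he₀, f₀, hf₀, hef, heig⟩ := exists_common_pair h2 A hiso hinv hcomm _ U le_rfl hinvU hU.2 hne
    obtain ⟨e, f, h1, h3, h4⟩ := ih (sympPerp B U e₀ f₀) (sympGood_perp hB hU e₀ f₀ he₀ hf₀ hef) (by
      intro a ha x hx
      rw [mem_sympPerp] at hx ⊢
      refine ⟨hinvU a ha x hx.1, ?_, ?_⟩
      · have : B (a e₀) (a x) = 0 := by rw [hiso a ha]; exact hx.2.1
        rcases heig a ha with h | h
        · rwa [h.1] at this
        · rw [h.1, map_neg, LinearMap.neg_apply, neg_eq_zero] at this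
          exact this
      · have : B (a f₀) (a x) = 0 := by rw [hiso a ha]; exact hx.2.2
        rcases heig a ha with h | h
        · rwa [h.2] at this
        · rw [h.2, map_neg, LinearMap.neg_apply, neg_eq_zero] at this
          exact this)
    refine ⟨Fin.cons e₀ e, Fin.cons f₀ f, ?_, ?_, ?_⟩
    · intro i
      refine Fin.cases ?_ (fun i' => ?_) i
      · simpa using hef
      · simpa using h1 i'
    · intro i
      refine Fin.cases ?_ (fun i' => ?_) i
      · simpa using heig
      · simpa using h3 i'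
    · intro x hx hperp
      apply h4 x
      · rw [mem_sympPerp]
        have := hperp 0
        simp only [Fin.cons_zero] at this
        exact ⟨hx, this.1, this.2⟩
      · intro i
        have := hperp i.succ
        simpa using this

end Cfsg.Agent.Lib.Helper15
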