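import Mathlib
import Cfsg.Agent.Lib.Helper15.SympFrame
import Cfsg.Agent.Lib.Helper15.ExtraCount
import Cfsg.Agent.S0246

set_option autoImplicit false

namespace Cfsg.Agent.Lib.Helper15

open Module Matrix Cfsg.Agent.Lib.Helper18

variable {F : Type*} [Field F] {m : ℕ}

/-- the linear map of a symplectic matrix -/
def spL (g : symplecticGroup (Fin m) F) : Module.End F (Fin m ⊕ Fin m → F) :=
  Matrix.mulVecLin (g : Matrix (Fin m ⊕ Fin m) (Fin m ⊕ Fin m) F)

theorem spL_mul (g h : symplecticGroup (Fin m) F) (x : Fin m ⊕ Fin m → F) : spL (g * h) x = spL g (spL h x) := by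
  show ((g * h : symplecticGroup (Fin m) F) : Matrix (Fin m ⊕ Fin m) (Fin m ⊕ Fin m) F) *ᵥ x = _
  rw [show ((g * h : symplecticGroup (Fin m) F) : Matrix (Fin m ⊕ Fin m) (Fin m ⊕ Fin m) F)
    = (g : Matrix (Fin m ⊕ Fin m) (Fin m ⊕ Fin m) F) * (h : Matrix (Fin m ⊕ Fin m) (Fin m ⊕ Fin m) F) from rfl,
    ← Matrix.mulVec_mulVec]
  rfl

theorem spL_one (x : Fin m ⊕ Fin m → F) : spL (1 : symplecticGroup (Fin m) F) x = x := by
  show (1 : Matrix (Fin m ⊕ Fin m) (Fin m ⊕ Fin m) F) *ᵥ x = x
  simp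

theorem spL_form (g : symplecticGroup (Fin m) F) (x y : Fin m ⊕ Fin m → F) :
    sympB m F (spL g x) (spL g y) = sympB m F x y := by
  have h := SymplecticGroup.mem_iff'.1 g.2
  rw [sympB_apply, sympB_apply]
  show ((g : Matrix (Fin m ⊕ Fin m) (Fin m ⊕ Fin m) F) *ᵥ x) ⬝ᵥ
    (J (Fin m) F *ᵥ ((g : Matrix (Fin m ⊕ Fin m) (Fin m ⊕ Fin m) F) *ᵥ y)) = _
  rw [Matrix.mulVec_mulVec, Matrix.dotProduct_mulVec, Matrix.vecMul_mulVec, ← Matrix.dotProduct_mulVec, ← mul_assoc, h]

theorem spL_ext {g h : symplecticGroup (Fin m) F} (H : ∀ x, spL g x = spL h x) : g = h := by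
  apply Subtype.ext
  apply Matrix.toLin'.injective
  apply LinearMap.ext
  intro x
  rw [Matrix.toLin'_apply, Matrix.toLin'_apply]
  exact H x

theorem spL_neg (x : Fin m ⊕ Fin m → F) : spL (Cfsg.Agent.S0246.spNegOne F m) x = -x := by
  show (-1 : Matrix (Fin m ⊕ Fin m) (Fin m ⊕ Fin m) F) *ᵥ x = -x
  simp [Matrix.neg_mulVec]


theorem spL_H1 [Fintype F] (h2 : (2 : F) ≠ 0) (hm : 1 ≤ m) (E : Subgroup (symplecticGroup (Fin m) F))
    (hco : ∀ x ∈ E, ∀ y ∈ E, x * y = y * x ∨ x * y = Cfsg.Agent.S0246.spNegOne F m * (y * x))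
    (A₀ : Set (symplecticGroup (Fin m) F)) (hAE : A₀ ⊆ E) (hinv : ∀ a ∈ A₀, a * a = 1)
    (hcomm : ∀ a ∈ A₀, ∀ b ∈ A₀, a * b = b * a) :
    Nat.card A₀ ≤ 2 ^ m ∧ Nat.card E ≤ m * Nat.card {x : symplecticGroup (Fin m) F | x ∈ E ∧ ∀ a ∈ A₀, x * a = a * x} := by
  classical
  set z := Cfsg.Agent.S0246.spNegOne F m with hz
  have hzz : z * z = 1 := by
    apply spL_ext
    intro x
    rw [spL_mul, spL_neg, spL_neg, neg_neg, spL_one]
  obtain ⟨e, f, hef, heig, hperp⟩ := exists_symp_eigen_frame (sympB_isAlt (m := m) (F := F)) h2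
    {T | ∃ a ∈ A₀, T = spL a}
    (by rintro _ ⟨a, _, rfl⟩ x y; exact spL_form a x y)
    (by rintro _ ⟨a, ha, rfl⟩ x; rw [← spL_mul, hinv a ha, spL_one])
    (by rintro _ ⟨a, ha, rfl⟩ _ ⟨b, hb, rfl⟩ x; rw [← spL_mul, ← spL_mul, hcomm a ha b hb])
    m ⊤ sympGood_top (fun _ _ _ _ => trivial)
  have hperp' : ∀ x, (∀ i, sympB m F (e i) x = 0 ∧ sympB m F (f i) x = 0) → x = 0 := fun x => hperp x trivial
  have he0 : ∀ i, e i ≠ 0 := by
    intro i h
    have := hef i
    rw [h] at this
    simp at this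
  let sg : symplecticGroup (Fin m) F → Fin m → F := fun a i => if spL a (e i) = e i then 1 else -1
  have hsg : ∀ a i, sg a i = 1 ∨ sg a i = -1 := by
    intro a i
    simp only [sg]
    split_ifs
    · exact Or.inl rfl
    · exact Or.inr rfl
  have hsge : ∀ a ∈ A₀, ∀ i, spL a (e i) = sg a i • e i ∧ spL a (f i) = sg a i • f i := by
    intro a ha i
    simp only [sg]
    rcases heig i (spL a) ⟨a, ha, rfl⟩ with h | h
    · rw [if_pos h.1, one_smul, one_smul]; exact h
    · have : spL a (e i) ≠ e i := by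
        intro h'
        rw [h.1] at h'
        have h3 : (2 : F) • e i = 0 := by
          rw [two_smul]
          nth_rewrite 1 [← h']
          simp
        exact (smul_ne_zero h2 (he0 i)) h3
      rw [if_neg this, neg_smul, neg_smul, one_smul, one_smul]; exact h
  have hadj : ∀ a ∈ A₀, ∀ u x, sympB m F u (spL a x) = sympB m F (spL a u) x := by
    intro a ha u x
    rw [← spL_form a (spL a u) x, ← spL_mul, hinv a ha, spL_one]
  constructor
  · have := Nat.card_le_card_of_injective (fun a : A₀ => fun i => decide (sg a i = 1)) (by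
      intro a a' haa
      have h1 : ∀ i, sg a i = sg a' i := by
        intro i
        have := congrFun haa i
        simp only [decide_eq_decide] at this
        rcases hsg a i with h | h
        · rw [h, this.1 h]
        · rcases hsg a' i with h' | h'
          · rw [h', this.2 h']
          · rw [h, h']
      apply Subtype.ext
      apply spL_ext
      intro x
      rw [← sub_eq_zero]
      apply hperp'
      intro i
      rw [map_sub, map_sub, hadj a a.2, hadj a' a'.2, hadj a a.2, hadj a' a'.2, (hsge a a.2 i).1, (hsge a a.2 i).2,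
        (hsge a' a'.2 i).1, (hsge a' a'.2 i).2, h1 i]
      simp)
    simpa using this
  · have hex : ∀ x : symplecticGroup (Fin m) F, ∃ l, sympB m F (e l) (spL x (e ⟨0, hm⟩)) ≠ 0 ∨
        sympB m F (f l) (spL x (e ⟨0, hm⟩)) ≠ 0 := by
      intro x
      by_contra hcon
      push Not at hcon
      have h1 := hperp' _ hcon
      have h3 : spL x⁻¹ (spL x (e ⟨0, hm⟩)) = 0 := by rw [h1, map_zero]
      rw [← spL_mul, inv_mul_cancel, spL_one] at h3
      exact he0 _ h3
    choose l hl using hex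
    have hone : (1 : F) ≠ -1 := by
      intro h
      apply h2
      linear_combination h
    -- the sign relation
    have key : ∀ x, ∀ a ∈ A₀, ∀ c : F, spL a (spL x (e ⟨0, hm⟩)) = c • spL x (spL a (e ⟨0, hm⟩)) →
        sg a (l x) * (c * sg a ⟨0, hm⟩) = 1 := by
      intro x a ha c hc
      rw [(hsge a ha _).1, map_smul, smul_smul] at hc
      rcases hl x with h | h
      · have h1 := spL_form a (e (l x)) (spL x (e ⟨0, hm⟩))
        rw [hc, (hsge a ha _).1, map_smul, map_smul, LinearMap.smul_apply, smul_eq_mul, smul_eq_mul] at h1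
        have h3 : (sg a (l x) * (c * sg a ⟨0, hm⟩) - 1) * sympB m F (e (l x)) (spL x (e ⟨0, hm⟩)) = 0 := by
          linear_combination h1
        exact sub_eq_zero.1 ((mul_eq_zero.1 h3).resolve_right h)
      · have h1 := spL_form a (f (l x)) (spL x (e ⟨0, hm⟩))
        rw [hc, (hsge a ha _).2, map_smul, map_smul, LinearMap.smul_apply, smul_eq_mul, smul_eq_mul] at h1
        have h3 : (sg a (l x) * (c * sg a ⟨0, hm⟩) - 1) * sympB m F (f (l x)) (spL x (e ⟨0, hm⟩)) = 0 := by
          linear_combination h1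
        exact sub_eq_zero.1 ((mul_eq_zero.1 h3).resolve_right h)
    have key1 : ∀ x, ∀ a ∈ A₀, x * a = a * x → sg a (l x) * sg a ⟨0, hm⟩ = 1 := by
      intro x a ha hxa
      have := key x a ha 1 (by rw [one_smul, ← spL_mul, ← spL_mul, hxa])
      rwa [one_mul] at this
    have key2 : ∀ x, ∀ a ∈ A₀, x * a = z * (a * x) → sg a (l x) * sg a ⟨0, hm⟩ = -1 := by
      intro x a ha hxa
      have := key x a ha (-1) (by
        rw [neg_smul, one_smul, ← spL_mul, ← spL_mul, hxa, spL_mul z, spL_neg, neg_neg])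
      linear_combination -this
    have := card_le_mul_of_fiber (E : Set (symplecticGroup (Fin m) F))
      {x : symplecticGroup (Fin m) F | x ∈ E ∧ ∀ a ∈ A₀, x * a = a * x} l (by
      intro x hx y hy hxy
      refine ⟨E.mul_mem (E.inv_mem hx) hy, fun a ha => ?_⟩
      rcases hco x hx a (hAE ha) with h1 | h1 <;> rcases hco y hy a (hAE ha) with h3 | h3
      · have e3 : x⁻¹ * a = a * x⁻¹ := by
          rw [inv_mul_eq_iff_eq_mul, ← mul_assoc, h1, mul_assoc, mul_inv_cancel, mul_one]
        rw [mul_assoc, h3, ← mul_assoc, e3, mul_assoc]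
      · exfalso
        have e1 := key1 x a ha h1
        have e2 := key2 y a ha h3
        rw [hxy, e2] at e1
        exact hone e1.symm
      · exfalso
        have e1 := key2 x a ha h1
        have e2 := key1 y a ha h3
        rw [hxy, e2] at e1
        exact hone e1
      · have e3 : x⁻¹ * (z * a) = a * x⁻¹ := by
          rw [inv_mul_eq_iff_eq_mul, ← mul_assoc, h1, mul_assoc, mul_assoc, mul_inv_cancel, mul_one]
        rw [mul_assoc, h3, ← mul_assoc z, ← mul_assoc, e3, mul_assoc])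
    simpa using this

end Cfsg.Agent.Lib.Helper15
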