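import Mathlib
import Cfsg.Agent.Lib.Helper29.SuGen
import Cfsg.Agent.Lib.Helper18.Herm4

/-!
`SU_n(q)` is generated by the unitary transvections for `n ≥ 3`, `(n, q) ≠ (3, 2)`.
-/

set_option autoImplicit false
set_option linter.unusedSectionVars false
set_option linter.unusedSimpArgs false

namespace Cfsg.Agent.Lib.Helper15

open Matrix Module Cfsg.Agent.H6 Cfsg.Agent.Lib.Helper29

variable {F : Type*} [Field F] [Fintype F] {n q : ℕ}

local notation "H" => Cfsg.hermForm n F q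
local notation "Vn" => (Fin n → F)

theorem hermB_pos' (j : ℕ) : 0 < Cfsg.Agent.Lib.Helper18.hermB F q (j + 1) := by
  unfold Cfsg.Agent.Lib.Helper18.hermB
  rw [Nat.card_pos_iff]
  refine ⟨⟨⟨Pi.single 0 1, ?_⟩⟩, inferInstance⟩
  rw [hermForm_single_left]
  simp

theorem exists_unit_of_good {U : Submodule F Vn} {j : ℕ}
    (hU : Cfsg.Agent.Lib.Helper18.HermGood q U (j + 1)) : ∃ u ∈ U, H u u = 1 := by
  have h := hU.2
  have hpos : 0 < Cfsg.Agent.Lib.Helper18.hermB F q (j + 1) := hermB_pos' j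
  rw [← h] at hpos
  obtain ⟨⟨u, hu⟩⟩ := (Nat.card_pos_iff.1 hpos).1
  exact ⟨u.1, u.2, hu⟩

theorem exists_unit_perp1 (hF : Fintype.card F = q ^ 2) (hn : 2 ≤ n) {a : Vn} (ha : H a a = 1) :
    ∃ c : Vn, H c c = 1 ∧ H c a = 0 := by
  obtain ⟨m, rfl⟩ : ∃ m, n = m + 1 + 1 := ⟨n - 2, by omega⟩
  have h0 := Cfsg.Agent.Lib.Helper18.hermGood_top (n := m + 1 + 1) hF
  have h1 := Cfsg.Agent.Lib.Helper18.hermGood_perp hF h0 a trivial ha
  obtain ⟨c, hc, hcc⟩ := exists_unit_of_good h1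
  exact ⟨c, hcc, hc.2⟩

theorem exists_unit_perp2 (hF : Fintype.card F = q ^ 2) (hn : 3 ≤ n) {a b : Vn} (ha : H a a = 1)
    (hb : H b b = 1) (hba : H b a = 0) :
    ∃ c : Vn, H c c = 1 ∧ H c a = 0 ∧ H c b = 0 := by
  obtain ⟨m, rfl⟩ : ∃ m, n = m + 1 + 1 + 1 := ⟨n - 3, by omega⟩
  have h0 := Cfsg.Agent.Lib.Helper18.hermGood_top (n := m + 1 + 1 + 1) hF
  have h1 := Cfsg.Agent.Lib.Helper18.hermGood_perp hF h0 a trivial ha
  have h2 := Cfsg.Agent.Lib.Helper18.hermGood_perp hF h1 b ⟨trivial, hba⟩ hb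
  obtain ⟨c, hc, hcc⟩ := exists_unit_of_good h2
  exact ⟨c, hcc, hc.1.2, hc.2⟩

theorem exists_unit_perp3 (hF : Fintype.card F = q ^ 2) (hn : 4 ≤ n) {a b d : Vn} (ha : H a a = 1)
    (hb : H b b = 1) (hd : H d d = 1) (hba : H b a = 0) (hda : H d a = 0) (hdb : H d b = 0) :
    ∃ c : Vn, H c c = 1 ∧ H c a = 0 ∧ H c b = 0 ∧ H c d = 0 := by
  obtain ⟨m, rfl⟩ : ∃ m, n = m + 1 + 1 + 1 + 1 := ⟨n - 4, by omega⟩
  have h0 := Cfsg.Agent.Lib.Helper18.hermGood_top (n := m + 1 + 1 + 1 + 1) hF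
  have h1 := Cfsg.Agent.Lib.Helper18.hermGood_perp hF h0 a trivial ha
  have h2 := Cfsg.Agent.Lib.Helper18.hermGood_perp hF h1 b ⟨trivial, hba⟩ hb
  have h3 := Cfsg.Agent.Lib.Helper18.hermGood_perp hF h2 d ⟨⟨trivial, hda⟩, hdb⟩ hd
  obtain ⟨c, hc, hcc⟩ := exists_unit_of_good h3
  exact ⟨c, hcc, hc.1.1.2, hc.1.2, hc.2⟩

/-- scaling a nonisotropic vector to a unit vector -/
theorem exists_unit_smul (hF : Fintype.card F = q ^ 2) {a : Vn} (ha : H a a ≠ 0) :
    ∃ (l : F) (a₁ : Vn), l ≠ 0 ∧ a = l • a₁ ∧ H a₁ a₁ = 1 := by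
  obtain ⟨l, hl⟩ := exists_norm_eq hF (H a a) (herm_self_pow hF a)
  have hl0 : l ≠ 0 := by
    rintro rfl
    apply ha
    rw [← hl]; simp
  have hlq : l ^ q ≠ 0 := pow_ne_zero _ hl0
  refine ⟨l, l⁻¹ • a, hl0, by rw [smul_smul, mul_inv_cancel₀ hl0, one_smul], ?_⟩
  rw [hermForm_smul_left, hermForm_smul_right, ← hl, inv_pow]
  field_simp

theorem conj_ueich' {g : GL (Fin n) F} (hg : g ∈ Cfsg.GU n F q) (w a : Vn) (s : F)
    (hw : H w w = 0) (haw : H a w = 0) (hwa : H w a = 0)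
    (hw' : H ((g : Matrix (Fin n) (Fin n) F) *ᵥ w) ((g : Matrix (Fin n) (Fin n) F) *ᵥ w) = 0)
    (haw' : H ((g : Matrix (Fin n) (Fin n) F) *ᵥ a) ((g : Matrix (Fin n) (Fin n) F) *ᵥ w) = 0)
    (hwa' : H ((g : Matrix (Fin n) (Fin n) F) *ᵥ w) ((g : Matrix (Fin n) (Fin n) F) *ᵥ a) = 0) :
    g * ueich q w a s hw haw hwa * g⁻¹
      = ueich q ((g : Matrix (Fin n) (Fin n) F) *ᵥ w) ((g : Matrix (Fin n) (Fin n) F) *ᵥ a) s
        hw' haw' hwa' := by
  apply gl_ext
  intro x
  have e : ∀ v : Vn, H (((g⁻¹ : GL (Fin n) F) : Matrix (Fin n) (Fin n) F) *ᵥ x) v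
      = H x ((g : Matrix (Fin n) (Fin n) F) *ᵥ v) := by
    intro v
    rw [← (Cfsg.Agent.Lib.Helper29.mem_GU_iff g).mp hg, gl_mulVec_inv]
  rw [gl_mul_mulVec, gl_mul_mulVec, ueich_mulVec, ueich_mulVec, e, e]
  simp only [Matrix.mulVec_add, Matrix.mulVec_smul, gl_mulVec_inv]

/-- an element of the fixed field other than `0`, `1` -/
theorem exists_fixed_ne (hF : Fintype.card F = q ^ 2) (hq3 : 3 ≤ q) :
    ∃ l : F, l ^ q = l ∧ l ≠ 0 ∧ l ≠ 1 := by
  obtain ⟨g, hg⟩ := IsCyclic.exists_generator (α := Fˣ)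
  have ho : orderOf g = (q + 1) * (q - 1) := by
    rw [orderOf_eq_card_of_forall_mem_zpowers hg, Cfsg.Agent.Lib.Helper18.herm_card_units hF]
  have hlt : q + 1 < orderOf g := by
    rw [ho]
    obtain ⟨m, rfl⟩ : ∃ m, q = m + 3 := ⟨q - 3, by omega⟩
    have : m + 3 - 1 = m + 2 := by omega
    rw [this]; nlinarith
  have hne := pow_ne_one_of_lt_orderOf (by omega : q + 1 ≠ 0) hlt
  refine ⟨(g : F) ^ (q + 1), Cfsg.Agent.Lib.Helper18.herm_norm_fix hF _, pow_ne_zero _ g.ne_zero, ?_⟩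
  intro h
  apply hne
  apply Units.ext
  rw [Units.val_pow_eq_pow_val, h, Units.val_one]

/-- for `q ≥ 3` all Eichler elements are products of transvections -/
theorem ueich_mem_of_three_le (hF : Fintype.card F = q ^ 2) (hq3 : 3 ≤ q) {u a : Vn} (hu : H u u = 0)
    (hau : H a u = 0) (hua : H u a = 0) (s : F) (hs : s + s ^ q + H a a = 0) :
    ueich q u a s hu hau hua ∈ utvGroup n q F := by
  have hq : q ≠ 0 := by omega
  by_cases haa : H a a = 0
  · exact ueich_mem_of_isotropic hF _ (fun v c hv hc => utv_mem_utvGroup v c hv hc) hu hau hua haa s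
      (by rw [haa, add_zero] at hs; exact hs)
  by_cases hu0 : u = 0
  · subst hu0
    have : ueich q (0 : Vn) a s hu hau hua = 1 := by
      apply gl_ext; intro x
      rw [ueich_mulVec, herm_zero_right hq]; simp
    rw [this]; exact Subgroup.one_mem _
  have hnot : u ∉ Submodule.span F {a} := by
    intro h
    obtain ⟨r, rfl⟩ := Submodule.mem_span_singleton.1 h
    rw [hermForm_smul_left] at hua
    have hr : r ≠ 0 := by rintro rfl; exact hu0 (zero_smul _ _)
    exact haa ((mul_eq_zero.1 hua).resolve_left hr)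
  obtain ⟨z, hz, hz1⟩ := exists_herm_perp_eq_one hF _ hnot
  have haz : H a z = 0 := hz a (Submodule.mem_span_singleton_self a)
  obtain ⟨l, hl⟩ := exists_isotropic_add hF hu (by rw [hz1]; exact one_ne_zero : H u z ≠ 0)
  set v := z + l • u with hv
  have huv : H u v = 1 := by
    rw [hv, hermForm_add_right hF, hermForm_smul_right, hu, hz1]; ring
  have hvu : H v u = 1 := by rw [← hermForm_conj hF, huv, one_pow]
  have hav : H a v = 0 := by
    rw [hv, hermForm_add_right hF, hermForm_smul_right, hau, haz]; ring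
  have hva : H v a = 0 := herm_eq_zero_symm hF hav
  obtain ⟨lam, hlam, hlam0, hlam1⟩ := exists_fixed_ne hF hq3
  obtain ⟨θ, hθ0, hθ⟩ := exists_trace_zero hF
  have hθq : θ ^ q = -θ := by linear_combination hθ
  have hl1 : lam - 1 ≠ 0 := sub_ne_zero.2 hlam1
  have hl1q : (lam - 1) ^ q = lam - 1 := by rw [sub_pow_q hF, hlam, one_pow]
  have hc3 : (lam - 1) * θ⁻¹ + ((lam - 1) * θ⁻¹) ^ q = 0 := by
    rw [mul_pow, hl1q, inv_pow, hθq]
    field_simp
    ring
  have hc1 : (lam⁻¹ - 1) * θ⁻¹ + ((lam⁻¹ - 1) * θ⁻¹) ^ q = 0 := by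
    rw [mul_pow, sub_pow_q hF, inv_pow, hlam, one_pow, inv_pow, hθq]
    field_simp
    ring
  set h : GL (Fin n) F := utv q v ((lam⁻¹ - 1) * θ⁻¹) hl * (utv q u θ hu * utv q v ((lam - 1) * θ⁻¹) hl)
    with hh
  have hhT : h ∈ utvGroup n q F :=
    Subgroup.mul_mem _ (utv_mem_utvGroup _ _ _ hc1)
      (Subgroup.mul_mem _ (utv_mem_utvGroup _ _ _ hθ) (utv_mem_utvGroup _ _ _ hc3))
  have hhu : (h : Matrix (Fin n) (Fin n) F) *ᵥ u = lam • u := by
    rw [hh, gl_mul_mulVec, gl_mul_mulVec, utv_mulVec, utv_mulVec, utv_mulVec]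
    simp only [hermForm_add_left, hermForm_smul_left, huv, hvu, hu, hl]
    have e1 : θ * (0 + (lam - 1) * θ⁻¹ * 1 * 1) = lam - 1 := by field_simp; ring
    have e2 : (lam⁻¹ - 1) * θ⁻¹ * (1 + (lam - 1) * θ⁻¹ * 1 * 0 + θ * (0 + (lam - 1) * θ⁻¹ * 1 * 1) * 1)
        = -((lam - 1) * θ⁻¹) := by
      rw [e1]; field_simp; ring
    rw [e2, e1]
    module
  have hhfix : ∀ y : Vn, H y u = 0 → H y v = 0 → (h : Matrix (Fin n) (Fin n) F) *ᵥ y = y := by
    intro y h1 h2
    have f1 : ∀ c : F, (utv q v c hl : Matrix (Fin n) (Fin n) F) *ᵥ y = y := by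
      intro c; rw [utv_mulVec, h2, mul_zero, zero_smul, add_zero]
    have f2 : ∀ c : F, (utv q u c hu : Matrix (Fin n) (Fin n) F) *ᵥ y = y := by
      intro c; rw [utv_mulVec, h1, mul_zero, zero_smul, add_zero]
    rw [hh, gl_mul_mulVec, gl_mul_mulVec, f1, f2, f1]
  obtain ⟨a', rfl⟩ : ∃ a', a = (lam - 1) • a' :=
    ⟨(lam - 1)⁻¹ • a, by rw [smul_smul, mul_inv_cancel₀ hl1, one_smul]⟩
  have ha'u : H a' u = 0 := by
    rw [hermForm_smul_left] at hau; exact (mul_eq_zero.1 hau).resolve_left hl1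
  have hua' : H u a' = 0 := herm_eq_zero_symm hF ha'u
  have ha'v : H a' v = 0 := by
    rw [hermForm_smul_left] at hav; exact (mul_eq_zero.1 hav).resolve_left hl1
  obtain ⟨s', hs'⟩ := exists_trace_eq hF (- H a' a') (by rw [neg_pow_q hF, herm_self_pow hF])
  have hE : ueich q u a' s' hu ha'u hua' ∈ Cfsg.GU n F q :=
    ueich_mem_GU hF u a' s' hu ha'u hua' (by rw [hs']; ring)
  set E := ueich q u a' s' hu ha'u hua' with hEdef
  have hhU : h ∈ Cfsg.GU n F q := (utvGroup_le_SU hF hhT).1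
  set δ := s + s' - (lam - 1) * H a' a' - lam ^ 2 * s' with hδ
  have hδtr : δ + δ ^ q = 0 := by
    rw [hδ, sub_pow_q hF, sub_pow_q hF, add_pow_q hF, mul_pow, mul_pow, hl1q, herm_self_pow hF,
      ← pow_mul, mul_comm 2 q, pow_mul, hlam]
    rw [hermForm_smul_left, hermForm_smul_right, hl1q] at hs
    linear_combination hs + (1 - lam ^ 2) * hs'
  have key : ueich q u ((lam - 1) • a') s hu hau hua * E = utv q u δ hu * (h * E * h⁻¹) := by
    rw [hEdef, conj_ueich' hhU u a' s' hu ha'u hua'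
      (by rw [(Cfsg.Agent.Lib.Helper29.mem_GU_iff h).mp hhU]; exact hu)
      (by rw [(Cfsg.Agent.Lib.Helper29.mem_GU_iff h).mp hhU]; exact ha'u)
      (by rw [(Cfsg.Agent.Lib.Helper29.mem_GU_iff h).mp hhU]; exact hua')]
    apply gl_ext; intro x
    rw [gl_mul_mulVec, gl_mul_mulVec, ueich_mulVec, ueich_mulVec, ueich_mulVec, utv_mulVec]
    rw [hhu, hhfix a' ha'u ha'v]
    simp only [hermForm_add_left, hermForm_smul_left, hermForm_smul_right, hu, ha'u, hua', hl1q, hlam]
    rw [hδ]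
    module
  have e : ueich q u ((lam - 1) • a') s hu hau hua = utv q u δ hu * (h * (E * h⁻¹ * E⁻¹)) := by
    have : ueich q u ((lam - 1) • a') s hu hau hua
        = (ueich q u ((lam - 1) • a') s hu hau hua * E) * E⁻¹ := by group
    rw [this, key]; group
  rw [e]
  exact Subgroup.mul_mem _ (utv_mem_utvGroup _ _ _ hδtr)
    (Subgroup.mul_mem _ hhT (utvGroup_conj hE (Subgroup.inv_mem _ hhT)))

/-- for `n ≥ 4` all Eichler elements are products of transvections -/
theorem ueich_mem_of_four_le (hF : Fintype.card F = q ^ 2) (hn : 4 ≤ n) {u a : Vn} (hu : H u u = 0)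
    (hau : H a u = 0) (hua : H u a = 0) (s : F) (hs : s + s ^ q + H a a = 0) :
    ueich q u a s hu hau hua ∈ utvGroup n q F := by
  apply ueich_mem_general hF _ (fun v c hv hc => utv_mem_utvGroup v c hv hc) hu hau hua _ s hs
  by_cases haa : H a a = 0
  · exact Or.inl haa
  right
  obtain ⟨l, a₁, hl0, rfl, ha₁⟩ := exists_unit_smul hF haa
  have hlq : l ^ q ≠ 0 := pow_ne_zero _ hl0
  have ha₁u : H a₁ u = 0 := by
    rw [hermForm_smul_left] at hau; exact (mul_eq_zero.1 hau).resolve_left hl0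
  have hua₁ : H u a₁ = 0 := herm_eq_zero_symm hF ha₁u
  obtain ⟨ε, hε⟩ := exists_norm_eq hF (-1 : F) (by rw [neg_pow_q hF, one_pow])
  -- a unit vector `b` perpendicular to `a₁` and `u`
  obtain ⟨b, hbb, hba, hbu⟩ : ∃ b : Vn, H b b = 1 ∧ H b a₁ = 0 ∧ H b u = 0 := by
    obtain ⟨d, hdd, hda⟩ := exists_unit_perp1 hF (by omega) ha₁
    by_cases hud : H u d = 0
    · exact ⟨d, hdd, hda, herm_eq_zero_symm hF hud⟩
    · have had : H a₁ d = 0 := herm_eq_zero_symm hF hda
      have hdu : H d u = (H u d) ^ q := (hermForm_conj hF u d).symm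
      set u' := u - H u d • d with hu'
      have hu'd : H u' d = 0 := by
        rw [hu', herm_sub_left, hermForm_smul_left, hdd]; ring
      have hu'a : H u' a₁ = 0 := by
        rw [hu', herm_sub_left, hermForm_smul_left, hua₁, hda]; ring
      have hu'u' : H u' u' ≠ 0 := by
        have : H u' u' = - (H u d * (H u d) ^ q) := by
          rw [hu', herm_sub_left, herm_sub_right hF, herm_sub_right hF, hermForm_smul_left,
            hermForm_smul_left, hermForm_smul_right, hermForm_smul_right, hu, hdd, hdu]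
          ring
        rw [this]
        exact neg_ne_zero.2 (mul_ne_zero hud (pow_ne_zero _ hud))
      obtain ⟨m, d', hm0, hd'e, hd'd'⟩ := exists_unit_smul hF hu'u'
      have hd'd : H d' d = 0 := by
        rw [hd'e, hermForm_smul_left] at hu'd; exact (mul_eq_zero.1 hu'd).resolve_left hm0
      have hd'a : H d' a₁ = 0 := by
        rw [hd'e, hermForm_smul_left] at hu'a; exact (mul_eq_zero.1 hu'a).resolve_left hm0
      obtain ⟨b, hbb, hba, hbd, hbd'⟩ := exists_unit_perp3 hF hn ha₁ hdd hd'd' hda hd'a hd'd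
      refine ⟨b, hbb, hba, ?_⟩
      have : u = m • d' + H u d • d := by rw [← hd'e, hu']; abel
      rw [this, hermForm_add_right hF, hermForm_smul_right, hermForm_smul_right, hbd, hbd']; ring
  have hab : H a₁ b = 0 := herm_eq_zero_symm hF hba
  refine ⟨a₁ + ε • b, ?_, ?_, ?_⟩
  · simp only [hermForm_add_left, hermForm_add_right hF, hermForm_smul_left, hermForm_smul_right,
      ha₁, hab, hba, hbb]
    linear_combination hε
  · rw [hermForm_add_left, hermForm_smul_left, ha₁u, hbu]; ring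
  · rw [hermForm_add_left, hermForm_smul_left, hermForm_smul_right, hermForm_smul_right, ha₁, hba]
    simpa using hlq

section trans

/-- all Eichler elements are products of transvections -/
def AllEich (n q : ℕ) (F : Type*) [Field F] [Fintype F] : Prop :=
  ∀ (u a : Fin n → F) (hu : Cfsg.hermForm n F q u u = 0) (hau : Cfsg.hermForm n F q a u = 0)
    (hua : Cfsg.hermForm n F q u a = 0) (s : F),
  s + s ^ q + Cfsg.hermForm n F q a a = 0 → ueich q u a s hu hau hua ∈ utvGroup n q F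

theorem exists_utvGroup_add' (hU : AllEich n q F) (hF : Fintype.card F = q ^ 2) {a u : Vn} (ha : H a a = 1)
    (hu : H u u = 0) (hua : H u a = 0) :
    ∃ t ∈ utvGroup n q F, (t : Matrix (Fin n) (Fin n) F) *ᵥ a = a + u := by
  have hau : H a u = 0 := herm_eq_zero_symm hF hua
  obtain ⟨s, hs⟩ := exists_trace_eq hF (-1 : F) (by rw [neg_pow_q hF, one_pow])
  have h1 : H (-a) u = 0 := by rw [herm_neg_left, hau, neg_zero]
  have h2 : H u (-a) = 0 := by rw [herm_neg_right hF, hua, neg_zero]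
  have h3 : H (-a) (-a) = 1 := by rw [herm_neg_left, herm_neg_right hF, ha]; ring
  refine ⟨ueich q u (-a) s hu h1 h2, hU _ _ _ _ _ _ (by rw [h3]; linear_combination hs), ?_⟩
  rw [ueich_mulVec, hau, herm_neg_right hF, ha]; simp

theorem exists_utvGroup_orth' (hU : AllEich n q F) (hF : Fintype.card F = q ^ 2) {a c d : Vn} (ha : H a a = 1)
    (hc : H c c = 1) (hd : H d d = 1) (hac : H a c = 0) (had : H a d = 0) (hcd : H c d = 0) :
    ∃ t ∈ utvGroup n q F, (t : Matrix (Fin n) (Fin n) F) *ᵥ a = c := by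
  obtain ⟨ε, hε⟩ := exists_norm_eq hF (-1 : F) (by rw [neg_pow_q hF, one_pow])
  have hca := herm_eq_zero_symm hF hac
  have hda := herm_eq_zero_symm hF had
  have hdc := herm_eq_zero_symm hF hcd
  obtain ⟨t₁, ht₁, e₁⟩ := exists_utvGroup_add' hU hF ha (u := c + ε • d) (by
      simp only [hermForm_add_left, hermForm_add_right hF, hermForm_smul_left, hermForm_smul_right, hc, hd,
        hcd, hdc]
      linear_combination hε) (by
      simp only [hermForm_add_left, hermForm_smul_left, hca, hda]; ring)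
  obtain ⟨t₂, ht₂, e₂⟩ := exists_utvGroup_add' hU hF (a := a + (c + ε • d)) (u := -(a + ε • d)) (by
      simp only [hermForm_add_left, hermForm_add_right hF, hermForm_smul_left, hermForm_smul_right, ha, hc, hd,
        hcd, hdc, hac, hca, had, hda]
      linear_combination hε) (by
      simp only [herm_neg_left, herm_neg_right hF, hermForm_add_left, hermForm_add_right hF,
        hermForm_smul_left, hermForm_smul_right, ha, hd, had, hda]
      linear_combination hε) (by
      simp only [herm_neg_left, hermForm_add_left, hermForm_add_right hF,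
        hermForm_smul_left, hermForm_smul_right, ha, hc, hd, hcd, hdc, hac, hca, had, hda]
      linear_combination -hε)
  refine ⟨t₂ * t₁, Subgroup.mul_mem _ ht₂ ht₁, ?_⟩
  rw [gl_mul_mulVec, e₁, e₂]; abel

/-- via a common perpendicular unit vector -/
theorem exists_utvGroup_of_common (hU : AllEich n q F) (hF : Fintype.card F = q ^ 2) (hn : 3 ≤ n) {a b c : Vn}
    (ha : H a a = 1) (hb : H b b = 1) (hc : H c c = 1) (hca : H c a = 0) (hcb : H c b = 0) :
    ∃ t ∈ utvGroup n q F, (t : Matrix (Fin n) (Fin n) F) *ᵥ a = b := by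
  obtain ⟨d, hdd, hda, hdc⟩ := exists_unit_perp2 hF hn ha hc hca
  obtain ⟨d', hdd', hdb', hdc'⟩ := exists_unit_perp2 hF hn hb hc hcb
  obtain ⟨t₁, ht₁, e₁⟩ := exists_utvGroup_orth' hU hF ha hc hdd (herm_eq_zero_symm hF hca)
    (herm_eq_zero_symm hF hda) (herm_eq_zero_symm hF hdc)
  obtain ⟨t₂, ht₂, e₂⟩ := exists_utvGroup_orth' hU hF hb hc hdd' (herm_eq_zero_symm hF hcb)
    (herm_eq_zero_symm hF hdb') (herm_eq_zero_symm hF hdc')
  refine ⟨t₂⁻¹ * t₁, Subgroup.mul_mem _ (Subgroup.inv_mem _ ht₂) ht₁, ?_⟩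
  rw [gl_mul_mulVec, e₁, ← e₂, gl_inv_mulVec]

theorem exists_utvGroup_norm_one' (hU : AllEich n q F) (hF : Fintype.card F = q ^ 2) (hn : 3 ≤ n) {a b : Vn}
    (ha : H a a = 1) (hb : H b b = 1) :
    ∃ t ∈ utvGroup n q F, (t : Matrix (Fin n) (Fin n) F) *ᵥ a = b := by
  set lam := H b a with hlam
  have hab : H a b = lam ^ q := by rw [hlam, hermForm_conj hF]
  set b' := b - lam • a with hb'
  have hb'a : H b' a = 0 := by
    rw [hb', herm_sub_left, hermForm_smul_left, ha, ← hlam]; ring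
  have hb'b' : H b' b' = 1 - lam * lam ^ q := by
    rw [hb', herm_sub_left, herm_sub_right hF, herm_sub_right hF, hermForm_smul_left,
      hermForm_smul_left, hermForm_smul_right, hermForm_smul_right, ha, hb, hab, ← hlam]
    ring
  by_cases hdeg : H b' b' = 0
  · -- `b = lam a + b'` with `b'` isotropic
    have hN : lam * lam ^ q = 1 := by rw [hb'b'] at hdeg; linear_combination -hdeg
    have hla : H (lam • a) (lam • a) = 1 := by
      rw [hermForm_smul_left, hermForm_smul_right, ha]; linear_combination hN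
    obtain ⟨c, hcc, hca⟩ := exists_unit_perp1 hF (by omega) ha
    obtain ⟨t₁, ht₁, e₁⟩ := exists_utvGroup_of_common hU hF hn ha hla hcc hca
      (by rw [hermForm_smul_right, hca, mul_zero])
    obtain ⟨t₂, ht₂, e₂⟩ := exists_utvGroup_add' hU hF hla hdeg
      (by rw [hermForm_smul_right, hb'a, mul_zero])
    refine ⟨t₂ * t₁, Subgroup.mul_mem _ ht₂ ht₁, ?_⟩
    rw [gl_mul_mulVec, e₁, e₂, hb']; abel
  · obtain ⟨m, b'', hm0, hb''e, hb''⟩ := exists_unit_smul hF hdeg
    have hb''a : H b'' a = 0 := by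
      rw [hb''e, hermForm_smul_left] at hb'a; exact (mul_eq_zero.1 hb'a).resolve_left hm0
    obtain ⟨c, hcc, hca, hcb''⟩ := exists_unit_perp2 hF hn ha hb'' hb''a
    refine exists_utvGroup_of_common hU hF hn ha hb hcc hca ?_
    have : b = m • b'' + lam • a := by rw [← hb''e, hb']; abel
    rw [this, hermForm_add_right hF, hermForm_smul_right, hermForm_smul_right, hca, hcb'']; ring

theorem su_le_utvGroup_of_allEich (hU : AllEich n q F) (hF : Fintype.card F = q ^ 2) (hn : 3 ≤ n) :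
    Cfsg.GU n F q ⊓ Cfsg.Geo.specialLinear (Fin n) F ≤ utvGroup n q F := by
  obtain ⟨b₀, -, hb₀⟩ := exists_norm_perp hF (Fin.elim0 : Fin 0 → Vn) (by omega) (1 : F) (one_pow q)
  have key : ∀ g ∈ Cfsg.GU n F q, ∃ t ∈ utvGroup n q F, ∃ (c : F) (hc : c + c ^ q + c * c ^ q * H b₀ b₀ = 0),
      g = t * uref q b₀ c (c ^ q) hc := by
    apply gu_induct hF
    · refine ⟨1, Subgroup.one_mem _, 0, by
        have hq : q ≠ 0 := by have := q_pos hF; omega
        simp [hq], ?_⟩
      apply gl_ext; intro x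
      rw [gl_mul_mulVec, uref_mulVec]; simp
    · rintro a c hc g hg ⟨t₁, ht₁, c₁, hc₁, rfl⟩
      by_cases haa : H a a = 0
      · refine ⟨utv q a c haa * t₁, Subgroup.mul_mem _ (utv_mem_utvGroup a c haa (by
          rw [haa, mul_zero, add_zero] at hc; exact hc)) ht₁, c₁, hc₁, ?_⟩
        have : uref q a c (c ^ q) hc = utv q a c haa := by
          apply gl_ext; intro x
          rw [uref_mulVec, utv_mulVec]
        rw [this, mul_assoc]
      · obtain ⟨l, hl⟩ := exists_norm_eq hF (H a a) (herm_self_pow hF a)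
        have hl0 : l ≠ 0 := by
          rintro rfl
          apply haa
          rw [← hl]; simp
        have hlq : l ^ q ≠ 0 := pow_ne_zero _ hl0
        have ha₁ : H (l⁻¹ • a) (l⁻¹ • a) = 1 := by
          rw [hermForm_smul_left, hermForm_smul_right, ← hl, inv_pow]
          field_simp
        obtain ⟨s, hs, es⟩ := exists_utvGroup_norm_one' hU hF hn hb₀ ha₁
        have hsU : s ∈ Cfsg.GU n F q := (utvGroup_le_SU hF hs).1
        set c' := c * (l * l ^ q) with hc'
        have hc'q : c' ^ q = c ^ q * (l * l ^ q) := by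
          rw [hc', mul_pow, mul_pow, pow_q_pow_q hF]; ring
        have hc'0 : c' + c' ^ q + c' * c' ^ q * H b₀ b₀ = 0 := by
          rw [hb₀, hc'q, hc', hl]
          linear_combination (H a a) * hc
        have e1 : uref q a c (c ^ q) hc = s * uref q b₀ c' (c' ^ q) hc'0 * s⁻¹ := by
          rw [conj_uref hsU b₀ c' (c' ^ q) hc'0 (by rw [(Cfsg.Agent.Lib.Helper29.mem_GU_iff s).mp hsU]; exact hc'0)]
          apply gl_ext; intro x
          rw [uref_mulVec, uref_mulVec, es, hermForm_smul_right, smul_smul, hc', inv_pow]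
          congr 1
          field_simp
        set r := uref q b₀ c' (c' ^ q) hc'0 with hr
        have hrU : r ∈ Cfsg.GU n F q := uref_mem_GU hF _ _ _
        set c₂ := c' + c₁ + c' * c₁ with hc₂
        have hc₂0 : c₂ + c₂ ^ q + c₂ * c₂ ^ q * H b₀ b₀ = 0 := by
          rw [hb₀] at hc'0 hc₁ ⊢
          have : c₂ ^ q = c' ^ q + c₁ ^ q + c' ^ q * c₁ ^ q := by
            rw [hc₂, add_pow_q hF, add_pow_q hF, mul_pow c' c₁ q]
          rw [this, hc₂]
          linear_combination (1 + c₁ + c₁ ^ q + c₁ * c₁ ^ q) * hc'0 + hc₁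
        refine ⟨s * (r * (s⁻¹ * t₁) * r⁻¹), Subgroup.mul_mem _ hs
          (utvGroup_conj hrU (Subgroup.mul_mem _ (Subgroup.inv_mem _ hs) ht₁)), c₂, hc₂0, ?_⟩
        have e2 : uref q b₀ c₂ (c₂ ^ q) hc₂0 = r * uref q b₀ c₁ (c₁ ^ q) hc₁ := by
          apply gl_ext; intro x
          rw [gl_mul_mulVec, uref_mulVec, hr, uref_mulVec, uref_mulVec, hermForm_add_left, hermForm_smul_left,
            hb₀, hc₂]
          module
        rw [e1, e2]
        group
  intro g hg
  obtain ⟨t, ht, c, hc, rfl⟩ := key g hg.1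
  have h1 := (mem_specialLinear_iff _).mp hg.2
  have h2 := (mem_specialLinear_iff _).mp (utvGroup_le_SU hF ht).2
  rw [Units.val_mul, Matrix.det_mul, h2, one_mul, uref_det, hb₀, mul_one] at h1
  have hc0 : c = 0 := by linear_combination h1
  have : uref q b₀ c (c ^ q) hc = 1 := by
    apply gl_ext; intro x
    rw [uref_mulVec, hc0]; simp
  rw [this, mul_one]
  exact ht


theorem su_le_utvGroup' (hF : Fintype.card F = q ^ 2) (hn : 3 ≤ n) (h32 : ¬ (n = 3 ∧ q = 2)) :
    Cfsg.GU n F q ⊓ Cfsg.Geo.specialLinear (Fin n) F ≤ utvGroup n q F := by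
  apply su_le_utvGroup_of_allEich _ hF hn
  have hq := q_pos hF
  by_cases h4 : 4 ≤ n
  · intro u a hu hau hua s hs
    exact ueich_mem_of_four_le hF h4 hu hau hua s hs
  · intro u a hu hau hua s hs
    exact ueich_mem_of_three_le hF (by omega) hu hau hua s hs

end trans

end Cfsg.Agent.Lib.Helper15
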