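import Mathlib
import Cfsg.Agent.Lib.Helper15.SuGen3

/-!
Normal subgroups of `SU_n(q)`: a subgroup of `SU` normalised by `SU` which moves an isotropic point
is all of `SU`.
-/

set_option autoImplicit false
set_option linter.unusedSectionVars false
set_option linter.unusedSimpArgs false

namespace Cfsg.Agent.Lib.Helper15

open Matrix Module Cfsg.Agent.H6 Cfsg.Agent.Lib.Helper29

variable {F : Type*} [Field F] [Fintype F] {n q : ℕ}

local notation "H" => Cfsg.hermForm n F q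
local notation "Vn" => (Fin n → F)
local notation "G0" => (Cfsg.GU n F q ⊓ Cfsg.Geo.specialLinear (Fin n) F)

/-- Moving `y` to `y'` fixing `w`, inside `SU`. -/
theorem ufix' (hF : Fintype.card F = q ^ 2)
    {w y y' : Fin n → F} (hw : H w w = 0) (hy : H y y = 0) (hy' : H y' y' = 0) (hyw : H y w ≠ 0)
    (hyy : H y' w = H y w) :
    ∃ t ∈ G0, (t : Matrix (Fin n) (Fin n) F) *ᵥ w = w ∧ (t : Matrix (Fin n) (Fin n) F) *ᵥ y = y' := by
  set c₀ := H y w with hc₀def
  have hc₀q : c₀ ^ q ≠ 0 := pow_ne_zero _ hyw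
  set a : Fin n → F := c₀⁻¹ • (y' - y) with ha
  have hza : y' = y + c₀ • a := by
    rw [ha, smul_smul, mul_inv_cancel₀ hyw, one_smul]; abel
  have haw : H a w = 0 := by
    rw [ha, hermForm_smul_left, herm_sub_left, hyy, ← hc₀def, sub_self, mul_zero]
  have hwa : H w a = 0 := herm_eq_zero_symm hF haw
  have hs : H y a / c₀ + (H y a / c₀) ^ q + H a a = 0 := by
    have h1 := hy'
    rw [hza] at h1
    simp only [hermForm_add_left, hermForm_add_right hF, hermForm_smul_left, hermForm_smul_right,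
      hy] at h1
    rw [div_pow, hermForm_conj hF]
    field_simp
    linear_combination h1
  refine ⟨ueich q w a (H y a / c₀) hw haw hwa,
    ⟨ueich_mem_GU hF w a _ hw haw hwa hs, ueich_mem_SL w a _ hw haw hwa⟩, ?_, ?_⟩
  · rw [ueich_mulVec, hw, hwa]; simp
  · rw [ueich_mulVec, ← hc₀def, div_mul_cancel₀ _ hyw, sub_self, zero_smul, add_zero, ← hza]

/-- `u` and `z` span points in the same `M`-orbit -/
def PRel (M : Subgroup (GL (Fin n) F)) (u z : Fin n → F) : Prop :=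
  ∃ g ∈ M, ∃ l : F, l ≠ 0 ∧ (g : Matrix (Fin n) (Fin n) F) *ᵥ u = l • z

theorem PRel.symm {M : Subgroup (GL (Fin n) F)} {u z : Vn} (h : PRel M u z) : PRel M z u := by
  obtain ⟨g, hg, l, hl, e⟩ := h
  refine ⟨g⁻¹, M.inv_mem hg, l⁻¹, inv_ne_zero hl, ?_⟩
  have : z = l⁻¹ • ((g : Matrix (Fin n) (Fin n) F) *ᵥ u) := by
    rw [e, smul_smul, inv_mul_cancel₀ hl, one_smul]
  rw [this, Matrix.mulVec_smul, gl_inv_mulVec]

theorem PRel.trans {M : Subgroup (GL (Fin n) F)} {u z y : Vn} (h : PRel M u z) (h' : PRel M z y) :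
    PRel M u y := by
  obtain ⟨g, hg, l, hl, e⟩ := h
  obtain ⟨g', hg', l', hl', e'⟩ := h'
  refine ⟨g' * g, M.mul_mem hg' hg, l * l', mul_ne_zero hl hl', ?_⟩
  rw [gl_mul_mulVec, e, Matrix.mulVec_smul, e', smul_smul]

theorem PRel.map {M : Subgroup (GL (Fin n) F)} {u z : Vn} (h : PRel M u z) {x : GL (Fin n) F}
    (hx : ∀ m ∈ M, x * m * x⁻¹ ∈ M) :
    PRel M ((x : Matrix (Fin n) (Fin n) F) *ᵥ u) ((x : Matrix (Fin n) (Fin n) F) *ᵥ z) := by
  obtain ⟨g, hg, l, hl, e⟩ := h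
  refine ⟨x * g * x⁻¹, hx g hg, l, hl, ?_⟩
  rw [gl_mul_mulVec, gl_mul_mulVec, gl_inv_mulVec, e, Matrix.mulVec_smul]

theorem PRel.of_smul {M : Subgroup (GL (Fin n) F)} {u z : Vn} {μ : F} (hμ : μ ≠ 0)
    (h : PRel M u (μ • z)) : PRel M u z := by
  obtain ⟨g, hg, l, hl, e⟩ := h
  exact ⟨g, hg, l * μ, mul_ne_zero hl hμ, by rw [e, smul_smul]⟩

section core

variable {M : Subgroup (GL (Fin n) F)}

theorem prel_step (hF : Fintype.card F = q ^ 2) (hnorm : ∀ x ∈ G0, ∀ m ∈ M, x * m * x⁻¹ ∈ M)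
    {u w y : Vn} (hR : PRel M u w) (hu : H u u = 0) (hw : H w w = 0) (hy : H y y = 0)
    (hwu : H w u ≠ 0) (hyu : H y u ≠ 0) : PRel M u y := by
  have hμ : H w u / H y u ≠ 0 := div_ne_zero hwu hyu
  obtain ⟨x, hx, e1, e2⟩ := ufix' hF (w := u) (y := w) (y' := (H w u / H y u) • y) hu hw
    (by rw [hermForm_smul_left, hermForm_smul_right, hy]; ring) hwu
    (by rw [hermForm_smul_left, div_mul_cancel₀ _ hyu])
  have := hR.map (hnorm x hx)
  rw [e1, e2] at this
  exact this.of_smul hμ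

theorem exists_isotropic_nonperp (hF : Fintype.card F = q ^ 2) {a a' : Vn} (ha0 : a ≠ 0) (ha0' : a' ≠ 0)
    (ha : H a a = 0) (h' : H a' a = 0) : ∃ x : Vn, H x x = 0 ∧ H a x ≠ 0 ∧ H a' x ≠ 0 := by
  obtain ⟨x, hx1, hx2⟩ : ∃ x, H a x ≠ 0 ∧ H a' x ≠ 0 := by
    obtain ⟨x1, hx1⟩ := exists_herm_ne_zero (q := q) hF ha0
    obtain ⟨x2, hx2⟩ := exists_herm_ne_zero (q := q) hF ha0'
    have hx1' := herm_ne_zero_symm hF hx1
    have hx2' := herm_ne_zero_symm hF hx2
    by_cases h1 : H a' x1 = 0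
    · by_cases h2 : H a x2 = 0
      · refine ⟨x1 + x2, ?_, ?_⟩
        · rw [hermForm_add_right hF, h2, add_zero]; exact hx1'
        · rw [hermForm_add_right hF, h1, zero_add]; exact hx2'
      · exact ⟨x2, h2, hx2'⟩
    · exact ⟨x1, hx1', h1⟩
  obtain ⟨l, hl⟩ := exists_isotropic_add hF ha hx1
  refine ⟨x + l • a, hl, ?_, ?_⟩
  · rw [hermForm_add_right hF, hermForm_smul_right, ha, mul_zero, add_zero]; exact hx1
  · rw [hermForm_add_right hF, hermForm_smul_right, h', mul_zero, add_zero]; exact hx2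

theorem prel_all (hF : Fintype.card F = q ^ 2) (hnorm : ∀ x ∈ G0, ∀ m ∈ M, x * m * x⁻¹ ∈ M)
    {u w : Vn} (hR : PRel M u w) (hu : H u u = 0) (hw : H w w = 0) (hwu : H w u ≠ 0)
    {z : Vn} (hz0 : z ≠ 0) (hz : H z z = 0) : PRel M u z := by
  have hq : q ≠ 0 := by have := q_pos hF; omega
  have hu0 : u ≠ 0 := by
    rintro rfl
    exact hwu (herm_zero_right hq w)
  by_cases hzu : H z u = 0
  · obtain ⟨w', hw', h1, h2⟩ := exists_isotropic_nonperp hF hu0 hz0 hu hzu
    have r1 : PRel M u w' := prel_step hF hnorm hR hu hw hw' hwu (herm_ne_zero_symm hF h1)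
    have r2 : PRel M w' z := prel_step hF hnorm r1.symm hw' hu hz h1 h2
    exact r1.trans r2
  · exact prel_step hF hnorm hR hu hw hz hwu hzu

theorem prel_exists (hF : Fintype.card F = q ^ 2) (hMU : M ≤ G0)
    (hnorm : ∀ x ∈ G0, ∀ m ∈ M, x * m * x⁻¹ ∈ M)
    {m : GL (Fin n) F} (hm : m ∈ M) {u : Vn} (hu : H u u = 0)
    (hmu : ¬ ∃ l : F, (m : Matrix (Fin n) (Fin n) F) *ᵥ u = l • u) :
    ∃ u' w' : Vn, PRel M u' w' ∧ H u' u' = 0 ∧ H w' w' = 0 ∧ H w' u' ≠ 0 := by
  set w := (m : Matrix (Fin n) (Fin n) F) *ᵥ u with hw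
  have hww : H w w = 0 := by rw [hw, (Cfsg.Agent.Lib.Helper29.mem_GU_iff m).mp (hMU hm).1, hu]
  have hR : PRel M u w := ⟨m, hm, 1, one_ne_zero, by rw [one_smul]⟩
  by_cases hwu : H w u = 0
  · have huw : H u w = 0 := herm_eq_zero_symm hF hwu
    have hnot : w ∉ Submodule.span F {u} := by
      intro h
      obtain ⟨r, hr⟩ := Submodule.mem_span_singleton.1 h
      exact hmu ⟨r, hr.symm⟩
    obtain ⟨z₀, hz₀, hz₁⟩ := exists_herm_perp_eq_one hF _ hnot
    have huz₀ : H u z₀ = 0 := hz₀ u (Submodule.mem_span_singleton_self u)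
    obtain ⟨l, hl⟩ := exists_isotropic_add hF hww (by rw [hz₁]; exact one_ne_zero : H w z₀ ≠ 0)
    set z := z₀ + l • w with hz
    have huz : H u z = 0 := by
      rw [hz, hermForm_add_right hF, hermForm_smul_right, huz₀, huw]; ring
    have hwz : H w z = 1 := by
      rw [hz, hermForm_add_right hF, hermForm_smul_right, hz₁, hww]; ring
    have hzw : H z w = 1 := by rw [← hermForm_conj hF, hwz, one_pow]
    obtain ⟨θ, hθ0, hθ⟩ := exists_trace_zero hF
    have hx := utv_mem_SU hF z θ hl hθ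
    have r1 := hR.map (hnorm _ hx)
    rw [utv_mulVec, utv_mulVec, huz, hwz, mul_zero, zero_smul, add_zero, mul_one] at r1
    refine ⟨w, w + θ • z, hR.symm.trans r1, hww, ?_, ?_⟩
    · simp only [hermForm_add_left, hermForm_add_right hF, hermForm_smul_left, hermForm_smul_right,
        hww, hl, hwz, hzw]
      linear_combination hθ
    · rw [hermForm_add_left, hermForm_smul_left, hww, hzw]
      simpa using hθ0
  · exact ⟨u, w, hR, hu, hww, hwu⟩

theorem utv_mul_utv (v : Vn) (c c' : F) (hv : H v v = 0) :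
    utv q v c hv * utv q v c' hv = utv q v (c + c') hv := by
  apply gl_ext; intro x
  rw [gl_mul_mulVec, utv_mulVec, utv_mulVec, utv_mulVec, hermForm_add_left, hermForm_smul_left, hv]
  module

theorem utv_zero' (v : Vn) (hv : H v v = 0) : utv q v 0 hv = 1 := by
  apply gl_ext; intro x
  rw [utv_mulVec]; simp

theorem utv_inv' (v : Vn) (c : F) (hv : H v v = 0) : (utv q v c hv)⁻¹ = utv q v (-c) hv := by
  rw [inv_eq_iff_mul_eq_one, utv_mul_utv, add_neg_cancel, utv_zero']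

/-- `SU = M X_v` -/
theorem exists_mul_utv (hF : Fintype.card F = q ^ 2) (hMU : M ≤ G0)
    (hnorm : ∀ x ∈ G0, ∀ m ∈ M, x * m * x⁻¹ ∈ M)
    (htr : ∀ u z : Vn, u ≠ 0 → z ≠ 0 → H u u = 0 → H z z = 0 → PRel M u z)
    {v : Vn} (hv0 : v ≠ 0) (hv : H v v = 0) {g : GL (Fin n) F} (hg : g ∈ utvGroup n q F) :
    ∃ m ∈ M, ∃ c : F, c + c ^ q = 0 ∧ g = m * utv q v c hv := by
  have hq : q ≠ 0 := by have := q_pos hF; omega
  unfold utvGroup at hg
  induction hg using Subgroup.closure_induction with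
  | mem x hx =>
    obtain ⟨z, c, hz, hc, rfl⟩ := hx
    by_cases hz0 : z = 0
    · subst hz0
      refine ⟨1, M.one_mem, 0, by simp [hq], ?_⟩
      rw [utv_zero', mul_one]
      apply gl_ext; intro x
      rw [utv_mulVec]; simp
    · obtain ⟨g₁, hg₁, l, hl, e⟩ := htr v z hv0 hz0 hv hz
      have hlq : l ^ q ≠ 0 := pow_ne_zero _ hl
      have hN : (l * l ^ q) ^ q = l * l ^ q := by rw [mul_pow, pow_q_pow_q hF, mul_comm]
      have hc' : c / (l * l ^ q) + (c / (l * l ^ q)) ^ q = 0 := by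
        rw [div_pow, hN, ← add_div, hc, zero_div]
      set t := utv q v (c / (l * l ^ q)) hv with ht
      have htG : t ∈ G0 := utv_mem_SU hF v _ hv hc'
      have hg₁U : g₁ ∈ Cfsg.GU n F q := (hMU hg₁).1
      have hgv : H ((g₁ : Matrix (Fin n) (Fin n) F) *ᵥ v) ((g₁ : Matrix (Fin n) (Fin n) F) *ᵥ v) = 0 := by
        rw [(Cfsg.Agent.Lib.Helper29.mem_GU_iff g₁).mp hg₁U, hv]
      have e1 : utv q z c hz = g₁ * t * g₁⁻¹ := by
        rw [ht, conj_utv hg₁U v _ hv hgv]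
        apply gl_ext; intro x
        rw [utv_mulVec, utv_mulVec, e, hermForm_smul_right, smul_smul]
        congr 1
        field_simp
      refine ⟨g₁ * (t * g₁⁻¹ * t⁻¹), M.mul_mem hg₁ (hnorm t htG _ (M.inv_mem hg₁)), _, hc', ?_⟩
      show utv q z c hz = g₁ * (t * g₁⁻¹ * t⁻¹) * t
      rw [e1]; group
  | one => exact ⟨1, M.one_mem, 0, by simp [hq], by rw [utv_zero', mul_one]⟩
  | mul a b _ _ ha hb =>
    obtain ⟨m, hm, c, hc, rfl⟩ := ha
    obtain ⟨m', hm', c', hc', rfl⟩ := hb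
    refine ⟨m * (utv q v c hv * m' * (utv q v c hv)⁻¹),
      M.mul_mem hm (hnorm _ (utv_mem_SU hF v c hv hc) _ hm'), c + c', ?_, ?_⟩
    · rw [add_pow_q hF]; linear_combination hc + hc'
    · rw [← utv_mul_utv]; group
  | inv a _ ha =>
    obtain ⟨m, hm, c, hc, rfl⟩ := ha
    have hc' : -c + (-c) ^ q = 0 := by rw [neg_pow_q hF]; linear_combination -hc
    refine ⟨utv q v (-c) hv * m⁻¹ * (utv q v (-c) hv)⁻¹,
      hnorm _ (utv_mem_SU hF v _ hv hc') _ (M.inv_mem hm), -c, hc', ?_⟩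
    rw [_root_.mul_inv_rev, utv_inv']; group

/-- every transvection is a commutator of two Eichler elements with the same centre -/
theorem exists_ueich_comm (hF : Fintype.card F = q ^ 2) (hn : 3 ≤ n) {v : Vn} (hv : H v v = 0) {c : F}
    (hc : c + c ^ q = 0) :
    ∃ E E' : GL (Fin n) F, E ∈ G0 ∧ E' ∈ G0 ∧ E * E' = utv q v c hv * (E' * E) ∧
      ∀ d : F, E * utv q v d hv = utv q v d hv * E := by
  obtain ⟨μ, hμ⟩ : ∃ μ : F, μ ^ q - μ = c := by
    obtain ⟨θ, hθ0, hθ⟩ := exists_trace_zero hF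
    have e1 : c ^ q = -c := by linear_combination hc
    have e2 : θ ^ q = -θ := by linear_combination hθ
    obtain ⟨l, hl⟩ := exists_trace_eq hF (c / θ) (by rw [div_pow, e1, e2, neg_div_neg_eq])
    refine ⟨-θ * l, ?_⟩
    rw [mul_pow, neg_pow_q hF, e2]
    have : c = θ * (c / θ) := by field_simp
    rw [this, ← hl]; ring
  obtain ⟨a, ha, haa⟩ := exists_norm_perp (q := q) hF (fun _ : Fin 1 => v) (by omega) 1 (one_pow q)
  have hav : H a v = 0 := ha 0
  have hva : H v a = 0 := herm_eq_zero_symm hF hav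
  have hav' : H (μ • a) v = 0 := by rw [hermForm_smul_left, hav, mul_zero]
  have hva' : H v (μ • a) = 0 := by rw [hermForm_smul_right, hva, mul_zero]
  obtain ⟨s, hs⟩ := exists_trace_eq hF (-1) (by rw [neg_pow_q hF, one_pow])
  obtain ⟨s', hs'⟩ := exists_trace_eq hF (-(μ * μ ^ q))
    (by rw [neg_pow_q hF, mul_pow, pow_q_pow_q hF, mul_comm])
  have hE := ueich_mem_GU hF v a s hv hav hva (by rw [haa, hs]; ring)
  have hE' := ueich_mem_GU hF v (μ • a) s' hv hav' hva'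
    (by rw [hermForm_smul_left, hermForm_smul_right, haa, hs']; ring)
  refine ⟨ueich q v a s hv hav hva, ueich q v (μ • a) s' hv hav' hva',
    ⟨hE, ueich_mem_SL v a s hv hav hva⟩, ⟨hE', ueich_mem_SL v (μ • a) s' hv hav' hva'⟩, ?_, ?_⟩
  · apply gl_ext; intro x
    simp only [gl_mul_mulVec, utv_mulVec, ueich_mulVec, hermForm_add_left, hermForm_smul_left,
      hermForm_smul_right, hv, hav, hva, haa]
    rw [← hμ]
    module
  · intro d
    apply gl_ext; intro x
    simp only [gl_mul_mulVec, utv_mulVec, ueich_mulVec, hermForm_add_left, hermForm_smul_left,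
      hermForm_smul_right, hv, hav, hva, haa]
    module

/-- **Core theorem.** A subgroup of `SU` normalised by `SU` and moving an isotropic point is `SU`. -/
theorem su_le_of_normal (hF : Fintype.card F = q ^ 2) (hn : 3 ≤ n) (h32 : ¬ (n = 3 ∧ q = 2))
    (hMU : M ≤ G0) (hnorm : ∀ x ∈ G0, ∀ m ∈ M, x * m * x⁻¹ ∈ M)
    {m : GL (Fin n) F} (hm : m ∈ M) {u : Vn} (hu : H u u = 0)
    (hmu : ¬ ∃ l : F, (m : Matrix (Fin n) (Fin n) F) *ᵥ u = l • u) : G0 ≤ M := by
  obtain ⟨u', w', hR, hu', hw', hwu⟩ := prel_exists hF hMU hnorm hm hu hmu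
  have htr : ∀ u z : Vn, u ≠ 0 → z ≠ 0 → H u u = 0 → H z z = 0 → PRel M u z := by
    intro u z hu0 hz0 hu hz
    exact (prel_all hF hnorm hR hu' hw' hwu hu0 hu).symm.trans (prel_all hF hnorm hR hu' hw' hwu hz0 hz)
  refine le_trans (su_le_utvGroup' hF hn h32) ?_
  unfold utvGroup
  rw [Subgroup.closure_le]
  rintro _ ⟨v, c, hv, hc, rfl⟩
  by_cases hv0 : v = 0
  · subst hv0
    have : utv q (0 : Vn) c hv = 1 := by
      apply gl_ext; intro x
      rw [utv_mulVec]; simp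
    rw [this]; exact M.one_mem
  obtain ⟨E, E', hE, hE', key, hcomm⟩ := exists_ueich_comm hF hn hv hc
  obtain ⟨m₁, hm₁, d, hd, e⟩ := exists_mul_utv hF hMU hnorm htr hv0 hv (su_le_utvGroup' hF hn h32 hE')
  have : utv q v c hv = (E * m₁ * E⁻¹) * m₁⁻¹ := by
    apply mul_right_cancel (b := E' * E)
    rw [← key, e]
    have h1 : E * m₁ * E⁻¹ * m₁⁻¹ * (m₁ * utv q v d hv * E) = E * m₁ * E⁻¹ * (utv q v d hv * E) := by group
    rw [h1, ← hcomm d]
    group
  rw [SetLike.mem_coe, this]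
  exact M.mul_mem (hnorm E hE _ hm₁) (M.inv_mem hm₁)

end core

/-- an element of `GU` fixing all isotropic points commutes with all transvections -/
theorem commute_utv_of_fix (hF : Fintype.card F = q ^ 2) {m : GL (Fin n) F} (hm : m ∈ Cfsg.GU n F q)
    (hfix : ∀ u : Vn, H u u = 0 → ∃ l : F, (m : Matrix (Fin n) (Fin n) F) *ᵥ u = l • u)
    (v : Vn) (c : F) (hv : H v v = 0) : m * utv q v c hv = utv q v c hv * m := by
  have hmU := (Cfsg.Agent.Lib.Helper29.mem_GU_iff m).mp hm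
  by_cases hv0 : v = 0
  · subst hv0
    have : utv q (0 : Vn) c hv = 1 := by
      apply gl_ext; intro x
      rw [utv_mulVec]; simp
    rw [this, mul_one, one_mul]
  obtain ⟨y₀, hy₀⟩ := exists_herm_ne_zero (q := q) hF hv0
  obtain ⟨l₀, hy⟩ := exists_isotropic_add hF hv (herm_ne_zero_symm hF hy₀)
  set y := y₀ + l₀ • v with hydef
  have hvy : H v y ≠ 0 := by
    rw [hydef, hermForm_add_right hF, hermForm_smul_right, hv, mul_zero, add_zero]
    exact herm_ne_zero_symm hF hy₀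
  have hyv : H y v ≠ 0 := herm_ne_zero_symm hF hvy
  obtain ⟨θ, hθ0, hθ⟩ := exists_trace_zero hF
  -- `w = v + μ y` isotropic, with `μ ^ q * H v y = θ`
  set μ := (θ / H v y) ^ q with hμ
  have hμq : μ ^ q = θ / H v y := by rw [hμ, pow_q_pow_q hF]
  have hμ0 : μ ≠ 0 := pow_ne_zero _ (div_ne_zero hθ0 hvy)
  have hyv' : H y v = (H v y) ^ q := (hermForm_conj hF v y).symm
  have hw : H (v + μ • y) (v + μ • y) = 0 := by
    simp only [hermForm_add_left, hermForm_add_right hF, hermForm_smul_left, hermForm_smul_right, hv, hy,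
      hμq]
    rw [hyv', hμ, ← mul_pow, div_mul_cancel₀ _ hvy]
    have : θ / H v y * H v y = θ := div_mul_cancel₀ _ hvy
    linear_combination hθ + this
  obtain ⟨l₁, e₁⟩ := hfix v hv
  obtain ⟨l₂, e₂⟩ := hfix y hy
  obtain ⟨l₃, e₃⟩ := hfix _ hw
  rw [Matrix.mulVec_add, Matrix.mulVec_smul, e₁, e₂] at e₃
  have h31 : l₃ = l₁ := by
    have := congrArg (fun z => H z y) e₃
    simp only [hermForm_add_left, hermForm_smul_left, hy] at this
    have h : (l₃ - l₁) * H v y = 0 := by linear_combination -this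
    exact sub_eq_zero.1 ((mul_eq_zero.1 h).resolve_right hvy)
  have h32 : l₃ = l₂ := by
    have := congrArg (fun z => H z v) e₃
    simp only [hermForm_add_left, hermForm_smul_left, hv] at this
    have h : (l₃ - l₂) * (μ * H y v) = 0 := by linear_combination -this
    exact sub_eq_zero.1 ((mul_eq_zero.1 h).resolve_right (mul_ne_zero hμ0 hyv))
  have hN : l₁ * l₁ ^ q = 1 := by
    have := hmU v y
    rw [e₁, e₂, hermForm_smul_left, hermForm_smul_right, ← h32, h31] at this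
    have h : (l₁ * l₁ ^ q - 1) * H v y = 0 := by linear_combination this
    exact sub_eq_zero.1 ((mul_eq_zero.1 h).resolve_right hvy)
  have hl₁ : l₁ ≠ 0 := by rintro rfl; simp at hN
  apply gl_ext; intro x
  rw [gl_mul_mulVec, gl_mul_mulVec, utv_mulVec, utv_mulVec, Matrix.mulVec_add, Matrix.mulVec_smul, e₁]
  have e : H ((m : Matrix (Fin n) (Fin n) F) *ᵥ x) v = l₁ * H x v := by
    have h1 := hmU x v
    rw [e₁, hermForm_smul_right] at h1
    rw [← h1]
    linear_combination (-(H ((m : Matrix (Fin n) (Fin n) F) *ᵥ x) v)) * hN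
  rw [e, smul_smul]
  congr 2
  ring

end Cfsg.Agent.Lib.Helper15
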